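import Groth.Prelude.Def_SGA1t
import Mathlib.RingTheory.IntegralClosure.IntegralRestrict
import Mathlib.RingTheory.Ideal.GoingUp
import Mathlib.RingTheory.LocalRing.ResidueField.Basic

/-!
# The Kummer algebra `SGA1t.kummer R a n` (arbitrary index type): basic facts

* `T`, `T_pow`, `lift`, `lift_T`, `ringHom_ext`: universal property;
* `isIntegral`, `isLocalRing`, `isLocalHom_algebraMap`.
-/

set_option autoImplicit false
universe u v w

namespace Groth.Agent.Pi1.H394.KummerAlg

open MvPolynomial IsLocalRing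

variable {R : Type u} [CommRing R] {ι : Type v} (a : ι → R) (n : ι → ℕ)

/-- The class of `T_i` in the Kummer algebra. -/
noncomputable def T (i : ι) : SGA1t.kummer R a n := Ideal.Quotient.mk _ (X i)

theorem algebraMap_eq (r : R) : algebraMap R (SGA1t.kummer R a n) r =
    Ideal.Quotient.mk (Ideal.span (Set.range fun i => (X i : MvPolynomial ι R) ^ n i - C (a i))) (C r) :=
  rfl

theorem T_pow (i : ι) : T a n i ^ n i = algebraMap R (SGA1t.kummer R a n) (a i) := by
  rw [algebraMap_eq, T, ← map_pow, Ideal.Quotient.mk_eq_mk_iff_sub_mem]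
  exact Ideal.subset_span ⟨i, rfl⟩

/-- Universal property of the Kummer algebra. -/
noncomputable def lift {S : Type w} [CommRing S] (f : R →+* S) (t : ι → S)
    (ht : ∀ i, t i ^ n i = f (a i)) : SGA1t.kummer R a n →+* S :=
  Ideal.Quotient.lift _ (MvPolynomial.eval₂Hom f t) (by
    intro g hg
    rw [← RingHom.mem_ker]
    refine (Ideal.span_le.mpr ?_ : Ideal.span _ ≤ RingHom.ker (MvPolynomial.eval₂Hom f t)) hg
    rintro _ ⟨i, rfl⟩
    simp [RingHom.mem_ker, ht i])

@[simp]
theorem lift_T {S : Type w} [CommRing S] (f : R →+* S) (t : ι → S)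
    (ht : ∀ i, t i ^ n i = f (a i)) (i : ι) : lift a n f t ht (T a n i) = t i := by
  refine (Ideal.Quotient.lift_mk _ _ _).trans ?_
  simp

@[simp]
theorem lift_algebraMap {S : Type w} [CommRing S] (f : R →+* S) (t : ι → S)
    (ht : ∀ i, t i ^ n i = f (a i)) (r : R) :
    lift a n f t ht (algebraMap R (SGA1t.kummer R a n) r) = f r := by
  rw [algebraMap_eq]
  refine (Ideal.Quotient.lift_mk _ _ _).trans ?_
  simp

theorem ringHom_ext {S : Type w} [CommRing S] {φ ψ : SGA1t.kummer R a n →+* S}
    (h0 : ∀ r, φ (algebraMap R _ r) = ψ (algebraMap R _ r))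
    (h : ∀ i, φ (T a n i) = ψ (T a n i)) : φ = ψ := by
  refine Ideal.Quotient.ringHom_ext ?_
  refine MvPolynomial.ringHom_ext ?_ ?_
  · exact h0
  · exact h

theorem kummerTwist_T (ζ : ∀ i, rootsOfUnity (n i) R) (i : ι) :
    SGA1t.kummerTwist R a n ζ (T a n i) = algebraMap R _ ((ζ i : Rˣ) : R) * T a n i := by
  refine (Ideal.Quotient.lift_mk _ _ _).trans ?_
  simp only [AlgHom.toRingHom_eq_coe, RingHom.coe_comp, RingHom.coe_coe, Function.comp_apply,
    aeval_X, map_mul]
  rfl

theorem kummerTwist_algebraMap (ζ : ∀ i, rootsOfUnity (n i) R) (r : R) :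
    SGA1t.kummerTwist R a n ζ (algebraMap R _ r) = algebraMap R _ r := by
  rw [algebraMap_eq]
  refine (Ideal.Quotient.lift_mk _ _ _).trans ?_
  simp only [AlgHom.toRingHom_eq_coe, RingHom.coe_comp, RingHom.coe_coe, Function.comp_apply,
    aeval_C]
  rfl

theorem isIntegral_T (hn : ∀ i, 1 ≤ n i) (i : ι) : IsIntegral R (T a n i) := by
  refine IsIntegral.of_pow (hn i) ?_
  rw [T_pow]
  exact isIntegral_algebraMap

theorem isIntegral (hn : ∀ i, 1 ≤ n i) : Algebra.IsIntegral R (SGA1t.kummer R a n) := by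
  constructor
  intro x
  obtain ⟨p, rfl⟩ := Ideal.Quotient.mk_surjective x
  induction p using MvPolynomial.induction_on with
  | C r => exact isIntegral_algebraMap (R := R) (A := SGA1t.kummer R a n) (x := r)
  | add p q hp hq => rw [map_add]; exact hp.add hq
  | mul_X p i hp => rw [map_mul]; exact hp.mul (isIntegral_T a n hn i)

section Local

variable [IsLocalRing R] (ha : ∀ i, a i ∈ maximalIdeal R) (hn : ∀ i, 1 ≤ n i)

include ha hn in
theorem exists_res : ∃ ε : SGA1t.kummer R a n →+* ResidueField R,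
    (∀ r, ε (algebraMap R _ r) = residue R r) ∧ ∀ i, ε (T a n i) = 0 := by
  refine ⟨lift a n (residue R) (fun _ => 0) (fun i => ?_), fun r => by simp, fun i => by simp⟩
  rw [zero_pow (Nat.one_le_iff_ne_zero.1 (hn i)), (residue_eq_zero_iff (a i)).2 (ha i)]

include ha hn in
theorem eq_ker_of_isMaximal (ε : SGA1t.kummer R a n →+* ResidueField R)
    (h1 : ∀ r, ε (algebraMap R _ r) = residue R r) (h2 : ∀ i, ε (T a n i) = 0)
    (M : Ideal (SGA1t.kummer R a n)) [hM : M.IsMaximal] : M = RingHom.ker ε := by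
  have := isIntegral a n hn
  have hc : (M.comap (algebraMap R (SGA1t.kummer R a n))).IsMaximal :=
    Ideal.isMaximal_comap_of_isIntegral_of_isMaximal (R := R) M
  have hc' : M.comap (algebraMap R (SGA1t.kummer R a n)) = maximalIdeal R :=
    eq_maximalIdeal hc
  have hT : ∀ i, T a n i ∈ M := by
    intro i
    refine hM.isPrime.mem_of_pow_mem (n i) ?_
    rw [T_pow]
    have : a i ∈ M.comap (algebraMap R (SGA1t.kummer R a n)) := by rw [hc']; exact ha i
    exact this
  let j : ResidueField R →+* SGA1t.kummer R a n ⧸ M :=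
    Ideal.Quotient.lift (maximalIdeal R) ((Ideal.Quotient.mk M).comp (algebraMap R _)) (by
      intro r hr
      rw [← hc'] at hr
      exact Ideal.Quotient.eq_zero_iff_mem.2 hr)
  have hj : j.comp ε = Ideal.Quotient.mk M := by
    refine KummerAlg.ringHom_ext (S := SGA1t.kummer R a n ⧸ M) a n (fun r => ?_) (fun i => ?_)
    · rw [RingHom.comp_apply, h1]
      rfl
    · rw [RingHom.comp_apply, h2, map_zero]
      exact (Ideal.Quotient.eq_zero_iff_mem.2 (hT i)).symm
  have hle : RingHom.ker ε ≤ M := by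
    intro x hx
    rw [RingHom.mem_ker] at hx
    rw [← Ideal.Quotient.eq_zero_iff_mem, ← hj, RingHom.comp_apply, hx, map_zero]
  have hsurj : Function.Surjective ε := by
    intro x
    obtain ⟨r, rfl⟩ := residue_surjective x
    exact ⟨algebraMap R _ r, h1 r⟩
  have hmax : (RingHom.ker ε).IsMaximal := RingHom.ker_isMaximal_of_surjective ε hsurj
  exact (hmax.eq_of_le hM.ne_top hle).symm

include ha hn in
theorem isLocalRing : IsLocalRing (SGA1t.kummer R a n) := by
  obtain ⟨ε, h1, h2⟩ := exists_res a n ha hn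
  have hsurj : Function.Surjective ε := by
    intro x
    obtain ⟨r, rfl⟩ := residue_surjective x
    exact ⟨algebraMap R _ r, h1 r⟩
  have hmax : (RingHom.ker ε).IsMaximal := RingHom.ker_isMaximal_of_surjective ε hsurj
  exact IsLocalRing.of_unique_max_ideal ⟨RingHom.ker ε, hmax, fun M hM =>
    eq_ker_of_isMaximal a n ha hn ε h1 h2 M⟩

end Local

end Groth.Agent.Pi1.H394.KummerAlg
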