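import Groth.Prelude.Def_SGA1t
import Groth.Prelude.Def_Hens2
import Groth.Agent.Proet.WEtaleScheme
import Groth.Agent.Pi1C.StrictHensConn
import Mathlib.AlgebraicGeometry.AffineSpace
import Mathlib.AlgebraicGeometry.Morphisms.WeaklyEtale

/-!
# Charts of a relative strict normal crossings divisor

`exists_chart`: if `Σ div(φ_i)` is a strict normal crossings divisor relative to `f : X → S`, `x` is a point of
the divisor and `g : Spec R → X` is weakly etale with `R` local, the closed point being mapped to `x` (for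
example `R = O_{X,x}` or a strict henselization of it), then `R` is weakly etale over a polynomial ring
`A[X_j]` over an affine open `Spec A` of `S` and the `φ_i` vanishing at `x` are distinct variables in `R`.
-/

set_option autoImplicit false
universe u

open CategoryTheory CategoryTheory.Limits AlgebraicGeometry

namespace Groth.Agent.Pi1.H394.Chart

variable {X S : Scheme.{u}}

/-- A morphism from the spectrum of a local ring lands in every open neighbourhood of the image of the
closed point. -/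
theorem range_subset {R : Type u} [CommRing R] [IsLocalRing R] (g : Spec (CommRingCat.of R) ⟶ X)
    (U : X.Opens) (hU : g (IsLocalRing.closedPoint R) ∈ U) : Set.range g ⊆ U := by
  rintro _ ⟨p, rfl⟩
  have h1 : p ⤳ (IsLocalRing.closedPoint R : ↥(Spec (CommRingCat.of R))) :=
    (PrimeSpectrum.le_iff_specializes _ _).1 (IsLocalRing.le_maximalIdeal p.2.ne_top)
  exact (h1.map g.continuous).mem_open U.2 hU

theorem ι_appTop_eq (W : X.Opens) :
    W.ι.appTop = X.presheaf.map (homOfLE le_top).op ≫ W.topIso.inv := by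
  refine Eq.trans ?_ (X.presheaf.map_comp (homOfLE (le_top : W ≤ ⊤)).op
    (eqToHom W.ι_image_top).op)
  exact Scheme.Opens.ι_appTop W

theorem exists_chart (f : X ⟶ S) {r : ℕ} (φ : Fin r → Γ(X, ⊤)) (hD : SGA1t.IsRelSNC f φ) (x : X)
    (hx : Nonempty (SGA1t.vanishingAt φ x)) (R : Type u) [CommRing R] [IsLocalRing R]
    (g : Spec (CommRingCat.of R) ⟶ X) [WeaklyEtale g] (hg : g (IsLocalRing.closedPoint R) = x) :
    ∃ (V : S.Opens) (hV : IsAffineOpen V) (_ : f x ∈ V) (d : ℕ)
      (e : SGA1t.vanishingAt φ x → ULift.{u} (Fin d))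
      (α : MvPolynomial (ULift.{u} (Fin d)) Γ(S, V) →+* R), Function.Injective e ∧
      (letI := α.toAlgebra; Algebra.WeaklyEtale (MvPolynomial (ULift.{u} (Fin d)) Γ(S, V)) R) ∧
      (∀ i, α (MvPolynomial.X (e i)) = (Scheme.ΓSpecIso (CommRingCat.of R)).hom (g.appTop (φ i.1))) ∧
      Spec.map (CommRingCat.ofHom (α.comp MvPolynomial.C)) ≫ hV.fromSpec = g ≫ f := by
  obtain ⟨W, hxW, d, v, e, he, hEt, hv⟩ := hD x hx
  obtain ⟨V, hV, hxV, -⟩ := exists_isAffineOpen_mem_and_subset (X := S) (U := ⊤) (x := f x) trivial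
  let n : Type u := ULift.{u} (Fin d)
  have hgW : Set.range g ⊆ Set.range W.ι := by
    rw [Scheme.Opens.range_ι]
    exact range_subset g W (by rw [hg]; exact hxW)
  let g' : Spec (CommRingCat.of R) ⟶ W := IsOpenImmersion.lift W.ι g hgW
  have hg' : g' ≫ W.ι = g := IsOpenImmersion.lift_fac W.ι g hgW
  have hwg' : WeaklyEtale g' := by
    have : WeaklyEtale (g' ≫ W.ι) := by rw [hg']; infer_instance
    exact WeaklyEtale.of_comp g' W.ι
  let c : (W : Scheme.{u}) ⟶ 𝔸(n; S) := AffineSpace.homOfVector (W.ι ≫ f) v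
  have hc : Etale c := hEt
  let k : Spec (CommRingCat.of R) ⟶ 𝔸(n; S) := g' ≫ c
  have hk : k ≫ 𝔸(n; S) ↘ S = g ≫ f := by
    rw [Category.assoc, AffineSpace.homOfVector_over, reassoc_of% hg']
  have hgV : Set.range (g ≫ f) ⊆ Set.range hV.fromSpec := by
    rw [hV.range_fromSpec]
    refine range_subset (g ≫ f) V ?_
    have h0 : (g ≫ f) (IsLocalRing.closedPoint R) = f x := by rw [← hg]; rfl
    rw [h0]
    exact hxV
  let k₀ : Spec (CommRingCat.of R) ⟶ Spec Γ(S, V) := IsOpenImmersion.lift hV.fromSpec (g ≫ f) hgV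
  have hk₀ : k₀ ≫ hV.fromSpec = g ≫ f := IsOpenImmersion.lift_fac _ _ _
  let k' : Spec (CommRingCat.of R) ⟶ 𝔸(n; Spec Γ(S, V)) :=
    (AffineSpace.isPullback_map (n := n) hV.fromSpec).lift k k₀ (by rw [hk, hk₀])
  have hk'1 : k' ≫ AffineSpace.map n hV.fromSpec = k :=
    (AffineSpace.isPullback_map (n := n) hV.fromSpec).lift_fst _ _ _
  have hk'2 : k' ≫ 𝔸(n; Spec Γ(S, V)) ↘ Spec Γ(S, V) = k₀ :=
    (AffineSpace.isPullback_map (n := n) hV.fromSpec).lift_snd _ _ _
  have hopen : IsOpenImmersion (AffineSpace.map n hV.fromSpec) :=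
    MorphismProperty.of_isPullback (P := @IsOpenImmersion)
      (AffineSpace.isPullback_map (n := n) hV.fromSpec).flip inferInstance
  have hwk' : WeaklyEtale k' := by
    have : WeaklyEtale (k' ≫ AffineSpace.map n hV.fromSpec) := by
      rw [hk'1]
      infer_instance
    exact WeaklyEtale.of_comp k' (AffineSpace.map n hV.fromSpec)
  let k'' : Spec (CommRingCat.of R) ⟶ Spec (CommRingCat.of (MvPolynomial n Γ(S, V))) :=
    k' ≫ (AffineSpace.SpecIso n Γ(S, V)).hom
  have hwk'' : WeaklyEtale k'' := inferInstance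
  let α : MvPolynomial n Γ(S, V) →+* R := (Spec.preimage k'').hom
  have hα : Spec.map (CommRingCat.ofHom α) = k'' := Spec.map_preimage k''
  refine ⟨V, hV, hxV, d, fun i => ULift.up (e i), α, ?_, ?_, ?_, ?_⟩
  · exact ULift.up_injective.comp he
  · let _ := α.toAlgebra
    rw [← Groth.Agent.Proet.WEtaleScheme.weaklyEtale_Spec_iff]
    change WeaklyEtale (Spec.map (CommRingCat.ofHom α))
    rw [hα]
    exact hwk''
  · intro i
    have h1 : g.appTop (φ i.1) = g'.appTop (v (ULift.up (e i))) := by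
      rw [hv i, ← hg', Scheme.Hom.comp_appTop, ι_appTop_eq]
      rfl
    have h2 : g'.appTop (v (ULift.up (e i))) = k.appTop (AffineSpace.coord S (ULift.up (e i))) := by
      rw [Scheme.Hom.comp_appTop, CommRingCat.comp_apply, AffineSpace.homOfVector_appTop_coord]
    have h3 : k.appTop (AffineSpace.coord S (ULift.up (e i))) =
        k'.appTop (AffineSpace.coord (Spec Γ(S, V)) (ULift.up (e i))) := by
      rw [← hk'1, Scheme.Hom.comp_appTop, CommRingCat.comp_apply, AffineSpace.map_appTop_coord]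
    have h4 : k'.appTop (AffineSpace.coord (Spec Γ(S, V)) (ULift.up (e i))) =
        k''.appTop ((Scheme.ΓSpecIso (.of _)).inv (.X (ULift.up (e i)))) := by
      rw [← AffineSpace.SpecIso_inv_appTop_coord, ← CommRingCat.comp_apply, ← Scheme.Hom.comp_appTop]
      simp only [k'', Category.assoc, Iso.hom_inv_id, Category.comp_id]
    rw [h1, h2, h3, h4, ← hα]
    have h5 := congr($(Scheme.ΓSpecIso_inv_naturality (CommRingCat.ofHom α)) (.X (ULift.up (e i))))
    rw [CommRingCat.comp_apply, CommRingCat.comp_apply] at h5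
    rw [← h5]
    simp
  · rw [← hk₀, ← hk'2, CommRingCat.ofHom_comp, Spec.map_comp, hα]
    congr 1
    rw [← AffineSpace.SpecIso_inv_over]
    change (k' ≫ (AffineSpace.SpecIso n Γ(S, V)).hom) ≫ (AffineSpace.SpecIso n Γ(S, V)).inv ≫ _ = _
    rw [Category.assoc, Iso.hom_inv_id_assoc]

end Groth.Agent.Pi1.H394.Chart
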