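import Mathlib.RingTheory.RootsOfUnity.AlgebraicallyClosed
import Mathlib.RingTheory.Henselian
import Mathlib.AlgebraicGeometry.Morphisms.Etale
import Mathlib.AlgebraicGeometry.Morphisms.Separated

/-!
# Roots of unity in strictly henselian local rings; rigidity of etale separated schemes

* `eq_one_of_map_eq_one`, `exists_root`: for a local (resp. strictly henselian local) ring `R`, `n` invertible
  in `R` and a ring map `ρ : R → Ω` to a field, `μ_n(R) → μ_n(Ω)` is injective (resp. surjective);
* `hom_ext_of_point`: two morphisms over `X` from a connected scheme to an etale separated `X`-scheme which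
  agree at one point (after composition with a morphism from a nonempty scheme) are equal.
-/

set_option autoImplicit false
universe u v

open CategoryTheory CategoryTheory.Limits AlgebraicGeometry

namespace Groth.Agent.Pi1.H394.Mu

section Roots

open IsLocalRing

theorem eq_one_of_map_eq_one {R : Type u} [CommRing R] [IsLocalRing R] {Ω : Type v} [Field Ω]
    (ρ : R →+* Ω) (n : ℕ) (hn : IsUnit (n : R)) (ζ : R) (hζ : ζ ^ n = 1) (h : ρ ζ = 1) : ζ = 1 := by
  have h1 : ¬ IsUnit (ζ - 1) := by
    intro hu
    have h2 := hu.map ρ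
    rw [map_sub, h, map_one, sub_self] at h2
    exact not_isUnit_zero h2
  have h3 : (∑ i ∈ Finset.range n, ζ ^ i) * (ζ - 1) = 0 := by
    rw [geom_sum_mul, hζ, sub_self]
  have h4 : residue R ζ = 1 := by
    have : ζ - 1 ∈ maximalIdeal R := h1
    rw [← residue_eq_zero_iff, map_sub, map_one, sub_eq_zero] at this
    exact this
  have h5 : IsUnit (∑ i ∈ Finset.range n, ζ ^ i) := by
    by_contra h6
    have h7 : (∑ i ∈ Finset.range n, ζ ^ i) ∈ maximalIdeal R := h6
    rw [← residue_eq_zero_iff, map_sum] at h7
    simp only [map_pow, h4, one_pow, Finset.sum_const, Finset.card_range, nsmul_eq_mul, mul_one] at h7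
    have h8 : residue R (n : R) = 0 := by rw [map_natCast]; exact h7
    rw [residue_eq_zero_iff] at h8
    exact h8 hn
  have h6 := h5.mul_right_eq_zero.1 h3
  exact sub_eq_zero.1 h6

theorem exists_primitive {R : Type u} [CommRing R] [HenselianLocalRing R]
    [IsSepClosed (ResidueField R)] (n : ℕ) (hn : IsUnit (n : R)) :
    ∃ ζ : R, ζ ^ n = 1 ∧ ∀ l, 0 < l → l < n → IsUnit (ζ ^ l - 1) := by
  have hn0 : NeZero ((n : ℕ) : ResidueField R) := by
    constructor
    have := hn.map (residue R)
    rw [map_natCast] at this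
    exact this.ne_zero
  have hn1 : NeZero n := .of_neZero_natCast (ResidueField R)
  obtain ⟨z, hz⟩ := (inferInstance : HasEnoughRootsOfUnity (ResidueField R) n).prim
  obtain ⟨a₀, rfl⟩ := residue_surjective z
  obtain ⟨ζ, h1, h2⟩ := HenselianLocalRing.is_henselian (R := R) (Polynomial.X ^ n - 1)
    (Polynomial.monic_X_pow_sub_C 1 (NeZero.ne n)) a₀ (by
      rw [← residue_eq_zero_iff]
      simp only [Polynomial.eval_sub, Polynomial.eval_pow, Polynomial.eval_X, Polynomial.eval_one,
        map_sub, map_pow, map_one]
      rw [hz.pow_eq_one, sub_self]) (by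
      simp only [Polynomial.derivative_sub, Polynomial.derivative_X_pow, Polynomial.derivative_one,
        sub_zero, Polynomial.eval_mul, Polynomial.eval_pow, Polynomial.eval_X, Polynomial.eval_C]
      refine hn.mul (IsUnit.pow _ ?_)
      by_contra hna
      have h3 : a₀ ∈ maximalIdeal R := hna
      rw [← residue_eq_zero_iff] at h3
      have h4 := hz.pow_eq_one
      rw [h3, zero_pow (NeZero.ne n)] at h4
      exact zero_ne_one h4)
  have h3 : ζ ^ n = 1 := by
    have : (Polynomial.X ^ n - 1 : Polynomial R).eval ζ = 0 := h1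
    simpa [sub_eq_zero] using this
  have h4 : residue R ζ = residue R a₀ := by
    rw [← residue_eq_zero_iff, map_sub, sub_eq_zero] at h2
    exact h2
  refine ⟨ζ, h3, fun l hl hln => ?_⟩
  by_contra h5
  have h6 : ζ ^ l - 1 ∈ maximalIdeal R := h5
  rw [← residue_eq_zero_iff, map_sub, map_pow, h4, map_one, sub_eq_zero] at h6
  have h7 := (hz.pow_eq_one_iff_dvd l).1 h6
  exact absurd (Nat.le_of_dvd hl h7) (not_le.2 hln)

theorem exists_root {R : Type u} [CommRing R] [HenselianLocalRing R]
    [IsSepClosed (ResidueField R)] {Ω : Type v} [Field Ω]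
    (ρ : R →+* Ω) (n : ℕ) (hn : IsUnit (n : R)) (w : Ω) (hw : w ^ n = 1) :
    ∃ ζ : R, ζ ^ n = 1 ∧ ρ ζ = w := by
  obtain ⟨ζ, h1, h2⟩ := exists_primitive n hn
  have hn1 : NeZero n := by
    constructor
    rintro rfl
    rw [Nat.cast_zero] at hn
    exact not_isUnit_zero hn
  have h3 : IsPrimitiveRoot (ρ ζ) n := by
    refine IsPrimitiveRoot.mk_of_lt _ (NeZero.pos n) (by rw [← map_pow, h1, map_one]) ?_
    intro l hl hln h4
    have h5 := (h2 l hl hln).map ρ
    rw [map_sub, map_pow, h4, map_one, sub_self] at h5
    exact not_isUnit_zero h5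
  obtain ⟨i, -, hi⟩ := h3.eq_pow_of_pow_eq_one hw
  exact ⟨ζ ^ i, by rw [← pow_mul, mul_comm, pow_mul, h1, one_pow], by rw [map_pow, hi]⟩

end Roots

section Rigidity

/-- Two morphisms over `X` from a connected scheme to an etale separated `X`-scheme which agree at a point
are equal. -/
theorem hom_ext_of_point {X E T T₀ : Scheme.{u}} (p : E ⟶ X) [Etale p] [IsSeparated p]
    [ConnectedSpace T] (a b : T ⟶ E) (hab : a ≫ p = b ≫ p) [Nonempty T₀] (i : T₀ ⟶ T)
    (hi : i ≫ a = i ≫ b) : a = b := by
  let c : T ⟶ pullback p p := pullback.lift a b hab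
  let w : pullback (pullback.diagonal p) c ⟶ T := pullback.snd _ _
  have hw : w ≫ a = w ≫ b := by
    have h1 : w ≫ c = pullback.fst _ _ ≫ pullback.diagonal p := (pullback.condition).symm
    have h2 : w ≫ a = w ≫ c ≫ pullback.fst p p := by rw [pullback.lift_fst]
    have h3 : w ≫ b = w ≫ c ≫ pullback.snd p p := by rw [pullback.lift_snd]
    rw [h2, h3, ← Category.assoc, ← Category.assoc, h1]
    simp
  have hop : IsOpenImmersion w := inferInstance
  have hcl : IsClosedImmersion w := inferInstance
  have hclopen : IsClopen (Set.range w) := ⟨w.isClosedEmbedding.isClosed_range, w.isOpenEmbedding.isOpen_range⟩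
  have hne : (Set.range w).Nonempty := by
    let l : T₀ ⟶ pullback (pullback.diagonal p) c :=
      pullback.lift (i ≫ a) i (by
        apply pullback.hom_ext
        · rw [Category.assoc, Category.assoc, Category.assoc, pullback.diagonal_fst, pullback.lift_fst,
            Category.comp_id]
        · rw [Category.assoc, Category.assoc, Category.assoc, pullback.diagonal_snd, pullback.lift_snd,
            Category.comp_id, hi])
    exact ⟨w (l (Classical.arbitrary T₀)), _, rfl⟩
  have huniv : Set.range w = Set.univ := hclopen.eq_univ hne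
  have : Surjective w := ⟨Set.range_eq_univ.mp huniv⟩
  have : IsIso w := (isIso_iff_isOpenImmersion_and_surjective w).mpr ⟨inferInstance, inferInstance⟩
  exact (cancel_epi w).mp hw

end Rigidity

end Groth.Agent.Pi1.H394.Mu
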