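import Groth.Prelude.Def_FEt
import Groth.Prelude.Def_PiSp
import Groth.Agent.Pi1.H394.KummerAlg
import Groth.Agent.Pi1.H394.Mu
import Mathlib.AlgebraicGeometry.Morphisms.Etale
import Mathlib.AlgebraicGeometry.Morphisms.Finite

/-!
# Automorphisms of Kummer covers over strictly henselian local rings

`main`: `R` strictly henselian local, `n_i` invertible in `R`, `U` an open subscheme of `Spec R` on which the
`a_i` are invertible. If the part over `U` of `Spec R[T_i]/(T_i^{n_i} - a_i)` is connected (and finite etale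
over `U`), then it is a Galois cover of `U` with automorphism group `∏ μ_{n_i}(R)`.
-/

set_option autoImplicit false
universe u

open CategoryTheory CategoryTheory.Limits AlgebraicGeometry

namespace Groth.Agent.Pi1.H394.KumAut

variable {R : Type u} [CommRing R] {ι : Type} (a : ι → R) (n : ι → ℕ)

/-- The structure map of the Kummer scheme. -/
noncomputable abbrev pr : Spec (CommRingCat.of (SGA1t.kummer R a n)) ⟶ Spec (CommRingCat.of R) :=
  Spec.map (CommRingCat.ofHom (algebraMap R (SGA1t.kummer R a n)))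

/-- The automorphism `T_i ↦ ζ_i T_i` of the Kummer scheme. -/
noncomputable abbrev tw (ζ : (i : ι) → ↥(rootsOfUnity (n i) R)) :
    Spec (CommRingCat.of (SGA1t.kummer R a n)) ⟶ Spec (CommRingCat.of (SGA1t.kummer R a n)) :=
  Spec.map (CommRingCat.ofHom (SGA1t.kummerTwist R a n ζ))

@[reassoc]
theorem tw_pr (ζ : (i : ι) → ↥(rootsOfUnity (n i) R)) : tw a n ζ ≫ pr a n = pr a n := by
  rw [← Spec.map_comp, ← CommRingCat.ofHom_comp]
  congr 2
  ext r
  exact KummerAlg.kummerTwist_algebraMap a n ζ r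

theorem tw_one : tw a n 1 = 𝟙 _ := by
  have h : SGA1t.kummerTwist R a n 1 = RingHom.id _ := by
    refine KummerAlg.ringHom_ext (S := SGA1t.kummer R a n) a n (fun r => ?_) (fun i => ?_)
    · exact KummerAlg.kummerTwist_algebraMap a n 1 r
    · rw [KummerAlg.kummerTwist_T]
      simp
  have h2 : CommRingCat.ofHom (SGA1t.kummerTwist R a n 1) = 𝟙 _ := by
    rw [h]
    rfl
  exact (congrArg Spec.map h2).trans (Spec.map_id _)

theorem tw_mul (ζ ξ : (i : ι) → ↥(rootsOfUnity (n i) R)) :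
    tw a n (ζ * ξ) = tw a n ζ ≫ tw a n ξ := by
  rw [← Spec.map_comp, ← CommRingCat.ofHom_comp]
  refine congrArg (fun f => Spec.map (CommRingCat.ofHom f)) ?_
  refine KummerAlg.ringHom_ext (S := SGA1t.kummer R a n) a n (fun r => ?_) (fun i => ?_)
  · rw [RingHom.comp_apply, KummerAlg.kummerTwist_algebraMap, KummerAlg.kummerTwist_algebraMap,
      KummerAlg.kummerTwist_algebraMap]
  · rw [RingHom.comp_apply, KummerAlg.kummerTwist_T, KummerAlg.kummerTwist_T, map_mul,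
      KummerAlg.kummerTwist_T, KummerAlg.kummerTwist_algebraMap]
    simp only [Pi.mul_apply, Subgroup.coe_mul, Units.val_mul, map_mul]
    ring

variable (U : (Spec (CommRingCat.of R)).Opens)

/-- The restriction of `tw` to the part over `U`. -/
noncomputable def twU (ζ : (i : ι) → ↥(rootsOfUnity (n i) R)) :
    (↑(pr a n ⁻¹ᵁ U) : Scheme.{u}) ⟶ ↑(pr a n ⁻¹ᵁ U) :=
  IsOpenImmersion.lift (pr a n ⁻¹ᵁ U).ι ((pr a n ⁻¹ᵁ U).ι ≫ tw a n ζ) (by
    rw [Scheme.Opens.range_ι]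
    rintro _ ⟨z, rfl⟩
    have h1 : pr a n (tw a n ζ ((pr a n ⁻¹ᵁ U).ι z)) = pr a n ((pr a n ⁻¹ᵁ U).ι z) := by
      rw [← Scheme.Hom.comp_apply (tw a n ζ) (pr a n), tw_pr]
    have h2 : pr a n ((pr a n ⁻¹ᵁ U).ι z) ∈ U := z.2
    change pr a n (tw a n ζ ((pr a n ⁻¹ᵁ U).ι z)) ∈ U
    rw [h1]
    exact h2)

@[reassoc]
theorem twU_ι (ζ : (i : ι) → ↥(rootsOfUnity (n i) R)) :
    twU a n U ζ ≫ (pr a n ⁻¹ᵁ U).ι = (pr a n ⁻¹ᵁ U).ι ≫ tw a n ζ :=
  IsOpenImmersion.lift_fac _ _ _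

@[reassoc]
theorem twU_res (ζ : (i : ι) → ↥(rootsOfUnity (n i) R)) :
    twU a n U ζ ≫ (pr a n ∣_ U) = pr a n ∣_ U := by
  rw [← cancel_mono U.ι, Category.assoc, morphismRestrict_ι, twU_ι_assoc, tw_pr]

theorem twU_one : twU a n U 1 = 𝟙 _ := by
  rw [← cancel_mono (pr a n ⁻¹ᵁ U).ι, twU_ι, tw_one, Category.comp_id, Category.id_comp]

theorem twU_mul (ζ ξ : (i : ι) → ↥(rootsOfUnity (n i) R)) :
    twU a n U (ζ * ξ) = twU a n U ζ ≫ twU a n U ξ := by
  rw [← cancel_mono (pr a n ⁻¹ᵁ U).ι, Category.assoc, twU_ι, tw_mul, twU_ι, twU_ι_assoc]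

section Points

variable {Ω : Type u} [Field Ω]

/-- The ring map attached to a point of the Kummer cover. -/
noncomputable def ptHom (s : Spec (CommRingCat.of Ω) ⟶ ↑(pr a n ⁻¹ᵁ U)) : SGA1t.kummer R a n →+* Ω :=
  (Spec.preimage (s ≫ (pr a n ⁻¹ᵁ U).ι)).hom

theorem SpecMap_ptHom (s : Spec (CommRingCat.of Ω) ⟶ ↑(pr a n ⁻¹ᵁ U)) :
    Spec.map (CommRingCat.ofHom (ptHom a n U s)) = s ≫ (pr a n ⁻¹ᵁ U).ι :=
  Spec.map_preimage _

theorem ptHom_injective (s t : Spec (CommRingCat.of Ω) ⟶ ↑(pr a n ⁻¹ᵁ U))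
    (h : ptHom a n U s = ptHom a n U t) : s = t := by
  rw [← cancel_mono (pr a n ⁻¹ᵁ U).ι, ← SpecMap_ptHom, ← SpecMap_ptHom, h]

theorem ptHom_twU (s : Spec (CommRingCat.of Ω) ⟶ ↑(pr a n ⁻¹ᵁ U))
    (ζ : (i : ι) → ↥(rootsOfUnity (n i) R)) :
    ptHom a n U (s ≫ twU a n U ζ) = (ptHom a n U s).comp (SGA1t.kummerTwist R a n ζ) := by
  have h : CommRingCat.ofHom (ptHom a n U (s ≫ twU a n U ζ)) =
      CommRingCat.ofHom ((ptHom a n U s).comp (SGA1t.kummerTwist R a n ζ)) := by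
    apply Spec.map_injective
    rw [SpecMap_ptHom, CommRingCat.ofHom_comp, Spec.map_comp, SpecMap_ptHom, Category.assoc,
      Category.assoc, twU_ι]
  exact congrArg CommRingCat.Hom.hom h

theorem SpecMap_comp_algebraMap (f : SGA1t.kummer R a n →+* Ω) :
    Spec.map (CommRingCat.ofHom (f.comp (algebraMap R (SGA1t.kummer R a n)))) =
      Spec.map (CommRingCat.ofHom f) ≫ pr a n := by
  rw [← Spec.map_comp, ← CommRingCat.ofHom_comp]

theorem ptHom_algebraMap_eq (s t : Spec (CommRingCat.of Ω) ⟶ ↑(pr a n ⁻¹ᵁ U))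
    (h : s ≫ (pr a n ∣_ U) = t ≫ (pr a n ∣_ U)) (r : R) :
    ptHom a n U s (algebraMap R _ r) = ptHom a n U t (algebraMap R _ r) := by
  have h1 : CommRingCat.ofHom ((ptHom a n U s).comp (algebraMap R (SGA1t.kummer R a n))) =
      CommRingCat.ofHom ((ptHom a n U t).comp (algebraMap R (SGA1t.kummer R a n))) := by
    apply Spec.map_injective
    rw [SpecMap_comp_algebraMap, SpecMap_comp_algebraMap, SpecMap_ptHom,
      SpecMap_ptHom, Category.assoc, Category.assoc, ← morphismRestrict_ι, reassoc_of% h]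
  exact RingHom.congr_fun (congrArg CommRingCat.Hom.hom h1) r

variable (hU : ∀ p : PrimeSpectrum R, (p : ↥(Spec (CommRingCat.of R))) ∈ U → ∀ i, a i ∉ p.asIdeal)

include hU in
theorem ptHom_T_ne_zero (hn : ∀ i, n i ≠ 0) (s : Spec (CommRingCat.of Ω) ⟶ ↑(pr a n ⁻¹ᵁ U)) (i : ι) :
    ptHom a n U s (KummerAlg.T a n i) ≠ 0 := by
  intro h
  have h1 : ptHom a n U s (algebraMap R _ (a i)) = 0 := by
    rw [← KummerAlg.T_pow, map_pow, h, zero_pow (hn i)]
  let pt : ↥(Spec (CommRingCat.of Ω)) := IsLocalRing.closedPoint Ω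
  have h2 : pr a n ((pr a n ⁻¹ᵁ U).ι (s pt)) ∈ U := (s pt).2
  have h3 : pr a n ((pr a n ⁻¹ᵁ U).ι (s pt)) =
      PrimeSpectrum.comap ((ptHom a n U s).comp (algebraMap R (SGA1t.kummer R a n)))
        (IsLocalRing.closedPoint Ω) := by
    have h4 : (s ≫ (pr a n ⁻¹ᵁ U).ι) ≫ pr a n =
        Spec.map (CommRingCat.ofHom ((ptHom a n U s).comp (algebraMap R (SGA1t.kummer R a n)))) := by
      rw [SpecMap_comp_algebraMap, SpecMap_ptHom]
    have h5 : pr a n ((pr a n ⁻¹ᵁ U).ι (s pt)) = ((s ≫ (pr a n ⁻¹ᵁ U).ι) ≫ pr a n) pt := rfl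
    rw [h5, h4]
    rfl
  refine hU _ (h3 ▸ h2) i ?_
  rw [PrimeSpectrum.comap_asIdeal, Ideal.mem_comap, RingHom.comp_apply, h1]
  exact Ideal.zero_mem _

end Points

end Groth.Agent.Pi1.H394.KumAut
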