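import Groth.Agent.Pi1.H394.KumAut

/-!
# Connected Kummer covers over strictly henselian local rings are Galois

`main`: `R` strictly henselian local, `n_i` invertible in `R`, `U` an open subscheme of `Spec R` on which the
`a_i` are invertible. If the part over `U` of `Spec R[T_i]/(T_i^{n_i} - a_i)` is connected (and finite etale
over `U`), then it is a Galois cover of `U` with automorphism group `∏ μ_{n_i}(R)`.
-/

set_option autoImplicit false
universe u

open CategoryTheory CategoryTheory.Limits AlgebraicGeometry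

namespace Groth.Agent.Pi1.H394.KumGal

open KumAut

theorem ne_zero_of_isUnit {R : Type u} [CommRing R] [Nontrivial R] (m : ℕ) (h : IsUnit (m : R)) :
    m ≠ 0 := by
  rintro rfl
  rw [Nat.cast_zero] at h
  exact not_isUnit_zero h

variable {R : Type u} [CommRing R] {ι : Type} (a : ι → R) (n : ι → ℕ)
  (U : (Spec (CommRingCat.of R)).Opens)

section Points

variable {Ω : Type u} [Field Ω]
variable (hU : ∀ p : PrimeSpectrum R, (p : ↥(Spec (CommRingCat.of R))) ∈ U → ∀ i, a i ∉ p.asIdeal)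

/-- A family of `n_i`-th roots of unity given by elements. -/
noncomputable def mkRoots (hn : ∀ i, n i ≠ 0) (ζ : ι → R) (hζ : ∀ i, ζ i ^ n i = 1) (i : ι) :
    ↥(rootsOfUnity (n i) R) :=
  haveI : NeZero (n i) := ⟨hn i⟩
  rootsOfUnity.mkOfPowEq (ζ i) (hζ i)

theorem mkRoots_val (hn : ∀ i, n i ≠ 0) (ζ : ι → R) (hζ : ∀ i, ζ i ^ n i = 1) (i : ι) :
    ((mkRoots n hn ζ hζ i : Rˣ) : R) = ζ i := rfl

include hU in
/-- Transitivity of the action of the roots of unity on geometric fibres. -/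
theorem exists_twist [HenselianLocalRing R] [IsSepClosed (IsLocalRing.ResidueField R)]
    (hn : ∀ i, IsUnit ((n i : ℕ) : R))
    (s t : Spec (CommRingCat.of Ω) ⟶ ↑(pr a n ⁻¹ᵁ U))
    (h : s ≫ (pr a n ∣_ U) = t ≫ (pr a n ∣_ U)) :
    ∃ ζ : (i : ι) → ↥(rootsOfUnity (n i) R), s ≫ twU a n U ζ = t := by
  have hn0 : ∀ i, n i ≠ 0 := fun i => ne_zero_of_isUnit (n i) (hn i)
  let ρ : R →+* Ω := (ptHom a n U s).comp (algebraMap R _)
  have hs := fun i => ptHom_T_ne_zero a n U hU hn0 s i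
  have key : ∀ i, ∃ ζ : R, ζ ^ n i = 1 ∧
      ρ ζ = ptHom a n U t (KummerAlg.T a n i) / ptHom a n U s (KummerAlg.T a n i) := by
    intro i
    refine Mu.exists_root ρ (n i) (hn i) _ ?_
    rw [div_pow, ← map_pow, ← map_pow, KummerAlg.T_pow, ptHom_algebraMap_eq a n U s t h,
      div_self]
    rw [← ptHom_algebraMap_eq a n U s t h, ← KummerAlg.T_pow, map_pow]
    exact pow_ne_zero _ (hs i)
  choose ζ hζ1 hζ2 using key
  refine ⟨mkRoots n hn0 ζ hζ1, ptHom_injective a n U _ _ ?_⟩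
  rw [ptHom_twU]
  refine KummerAlg.ringHom_ext (S := Ω) a n (fun r => ?_) (fun i => ?_)
  · rw [RingHom.comp_apply, KummerAlg.kummerTwist_algebraMap, ptHom_algebraMap_eq a n U s t h]
  · rw [RingHom.comp_apply, KummerAlg.kummerTwist_T, map_mul, mkRoots_val]
    have h1 : ptHom a n U s (algebraMap R _ (ζ i)) =
      ptHom a n U t (KummerAlg.T a n i) / ptHom a n U s (KummerAlg.T a n i) := hζ2 i
    rw [h1, div_mul_cancel₀ _ (hs i)]

include hU in
/-- The action of the roots of unity on geometric fibres is free. -/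
theorem eq_one_of_fix [IsLocalRing R] (hn : ∀ i, IsUnit ((n i : ℕ) : R))
    (s : Spec (CommRingCat.of Ω) ⟶ ↑(pr a n ⁻¹ᵁ U)) (ζ : (i : ι) → ↥(rootsOfUnity (n i) R))
    (h : s ≫ twU a n U ζ = s) : ζ = 1 := by
  have hn0 : ∀ i, n i ≠ 0 := fun i => ne_zero_of_isUnit (n i) (hn i)
  let ρ : R →+* Ω := (ptHom a n U s).comp (algebraMap R _)
  have hs := fun i => ptHom_T_ne_zero a n U hU hn0 s i
  funext i
  have h1 : ptHom a n U (s ≫ twU a n U ζ) (KummerAlg.T a n i) =
      ptHom a n U s (KummerAlg.T a n i) := by rw [h]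
  rw [ptHom_twU, RingHom.comp_apply, KummerAlg.kummerTwist_T, map_mul] at h1
  have h2 : ρ ((ζ i : Rˣ) : R) = 1 := mul_right_cancel₀ (hs i) (h1.trans (one_mul _).symm)
  have h3 : (((ζ i : Rˣ) : R)) ^ n i = 1 := by
    have := congrArg Units.val ((mem_rootsOfUnity (n i) (ζ i : Rˣ)).mp (ζ i).2)
    simpa using this
  have h4 := Mu.eq_one_of_map_eq_one ρ (n i) (hn i) _ h3 h2
  ext
  exact h4

end Points

section Aut

variable [hF : IsFinite (pr a n ∣_ U)] [hE : Etale (pr a n ∣_ U)]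

/-- The Kummer cover of `U`. -/
noncomputable abbrev cov : FEt.Cat (U : Scheme.{u}) :=
  MorphismProperty.Over.mk ⊤ (pr a n ∣_ U) ⟨hF, hE⟩

/-- The action of the roots of unity on the Kummer cover. -/
noncomputable def homOf (ζ : (i : ι) → ↥(rootsOfUnity (n i) R)) : cov a n U ⟶ cov a n U :=
  MorphismProperty.Over.homMk (twU a n U ζ) (twU_res a n U ζ)

theorem homOf_left (ζ : (i : ι) → ↥(rootsOfUnity (n i) R)) : (homOf a n U ζ).left = twU a n U ζ := rfl

theorem homOf_one : homOf a n U 1 = 𝟙 _ :=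
  MorphismProperty.Over.Hom.ext (twU_one a n U)

theorem homOf_mul (ζ ξ : (i : ι) → ↥(rootsOfUnity (n i) R)) :
    homOf a n U (ζ * ξ) = homOf a n U ζ ≫ homOf a n U ξ :=
  MorphismProperty.Over.Hom.ext (twU_mul a n U ζ ξ)

/-- The action of the roots of unity on the Kummer cover, as a group homomorphism. -/
noncomputable def autOf : ((i : ι) → ↥(rootsOfUnity (n i) R)) →* Aut (cov a n U) where
  toFun ζ :=
    { hom := homOf a n U ζ
      inv := homOf a n U ζ⁻¹
      hom_inv_id := by rw [← homOf_mul, mul_inv_cancel, homOf_one]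
      inv_hom_id := by rw [← homOf_mul, inv_mul_cancel, homOf_one] }
  map_one' := Iso.ext (homOf_one a n U)
  map_mul' ζ ξ := Iso.ext (by
    change homOf a n U (ζ * ξ) = homOf a n U ξ ≫ homOf a n U ζ
    rw [← homOf_mul, mul_comm])

theorem autOf_hom_left (ζ : (i : ι) → ↥(rootsOfUnity (n i) R)) :
    (autOf a n U ζ).hom.left = twU a n U ζ := rfl

variable (hU : ∀ p : PrimeSpectrum R, (p : ↥(Spec (CommRingCat.of R))) ∈ U → ∀ i, a i ∉ p.asIdeal)

include hU in
/-- Connected Kummer covers over strictly henselian local rings are Galois with group the product of the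
groups of roots of unity. -/
theorem main [HenselianLocalRing R] [IsSepClosed (IsLocalRing.ResidueField R)]
    (hn : ∀ i, IsUnit ((n i : ℕ) : R)) [hconn : ConnectedSpace ↥(pr a n ⁻¹ᵁ U)] :
    PiSp.IsGaloisCover (cov a n U) ∧
      ∃ θ : ((i : ι) → ↥(rootsOfUnity (n i) R)) ≃* Aut (cov a n U),
        ∀ ζ, (θ ζ).hom.left ≫ (pr a n ⁻¹ᵁ U).ι =
          (pr a n ⁻¹ᵁ U).ι ≫ Spec.map (CommRingCat.ofHom (SGA1t.kummerTwist R a n ζ)) := by
  have hc : ConnectedSpace (cov a n U).left := hconn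
  refine ⟨⟨hc, ?_⟩, ?_⟩
  · intro Ω _ _ ξ s t
    obtain ⟨ζ, hζ⟩ := exists_twist a n U hU hn s.1 t.1 (s.2.trans t.2.symm)
    exact ⟨autOf a n U ζ, Subtype.ext hζ⟩
  · -- a geometric point
    have hc' : ConnectedSpace ↥(↑(pr a n ⁻¹ᵁ U) : Scheme.{u}) := hconn
    obtain ⟨z⟩ : Nonempty ↥(↑(pr a n ⁻¹ᵁ U) : Scheme.{u}) := inferInstance
    let Ω := (↑(pr a n ⁻¹ᵁ U) : Scheme.{u}).residueField z
    let s : Spec (CommRingCat.of Ω) ⟶ ↑(pr a n ⁻¹ᵁ U) :=
      (↑(pr a n ⁻¹ᵁ U) : Scheme.{u}).fromSpecResidueField z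
    have hinj : Function.Injective (autOf a n U) := by
      rw [injective_iff_map_eq_one]
      intro ζ hζ
      refine eq_one_of_fix a n U hU hn s ζ ?_
      have h1 : twU a n U ζ = 𝟙 _ := by
        rw [← autOf_hom_left, hζ]
        rfl
      rw [h1, Category.comp_id]
    have hsurj : Function.Surjective (autOf a n U) := by
      intro σ
      have hσ : σ.hom.left ≫ (pr a n ∣_ U) = pr a n ∣_ U := MorphismProperty.Over.w σ.hom
      have hσ2 : s ≫ (pr a n ∣_ U) = (s ≫ σ.hom.left) ≫ (pr a n ∣_ U) :=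
        ((Category.assoc _ _ _).trans (congrArg (s ≫ ·) hσ)).symm
      obtain ⟨ζ, hζ⟩ := exists_twist a n U hU hn s (s ≫ σ.hom.left) hσ2
      refine ⟨ζ, Iso.ext (MorphismProperty.Over.Hom.ext ?_)⟩
      rw [autOf_hom_left]
      exact Mu.hom_ext_of_point (pr a n ∣_ U) (twU a n U ζ) σ.hom.left
        ((twU_res a n U ζ).trans hσ.symm) s hζ
    exact ⟨MulEquiv.ofBijective (autOf a n U) ⟨hinj, hsurj⟩, fun ζ => twU_ι a n U ζ⟩

end Aut

end Groth.Agent.Pi1.H394.KumGal
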