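import Groth.Agent.Pi1.H394.WEReduced
import Groth.Agent.Sga3A.GeomConn
import Mathlib.Algebra.MvPolynomial.Division
import Mathlib.RingTheory.MvPolynomial.Basic
import Mathlib.Algebra.MvPolynomial.Nilpotent
import Mathlib.RingTheory.TensorProduct.Quotient
import Mathlib.RingTheory.TensorProduct.MvPolynomial
import Mathlib.RingTheory.Spectrum.Prime.Topology
import Mathlib.RingTheory.Spectrum.Prime.RingHom
import Mathlib.RingTheory.LocalRing.Basic

/-!
# Connectedness of the complement of coordinate hyperplanes in a local weakly etale algebra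

Let `D` be a local ring, weakly etale over a polynomial ring `A[X_i]_{i ∈ σ}` and `J` a finite set of
variables. Then `D(∏_{j ∈ J} X_j) ⊆ Spec D` is connected: `isConnected_basicOpen`.
-/

set_option autoImplicit false
universe u v

open TensorProduct MvPolynomial

namespace Groth.Agent.Pi1.H394.PolyConn

section Poly

variable {σ : Type v} {A : Type u} [CommRing A]

open Classical in
/-- The substitution `X_j ↦ 0`. -/
noncomputable def kill (j : σ) : MvPolynomial σ A →ₐ[A] MvPolynomial σ A :=
  aeval (fun i => if i = j then 0 else X i)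

theorem kill_X_self (j : σ) : kill (A := A) j (X j) = 0 := by
  rw [kill, aeval_X, if_pos rfl]

theorem kill_X_of_ne {i j : σ} (h : i ≠ j) : kill (A := A) j (X i) = X i := by
  rw [kill, aeval_X, if_neg h]

theorem X_dvd_sub_kill (j : σ) (g : MvPolynomial σ A) : X j ∣ g - kill j g := by
  induction g using MvPolynomial.induction_on with
  | C a => simp [kill]
  | add p q hp hq =>
    rw [map_add, add_sub_add_comm]
    exact dvd_add hp hq
  | mul_X p i hp =>
    rw [map_mul]
    by_cases h : i = j
    · subst h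
      rw [kill_X_self, mul_zero, sub_zero]
      exact dvd_mul_left _ _
    · rw [kill_X_of_ne h, ← sub_mul]
      exact dvd_mul_of_dvd_left hp _

theorem X_dvd_iff (j : σ) (g : MvPolynomial σ A) : X j ∣ g ↔ kill j g = 0 := by
  constructor
  · rintro ⟨h, rfl⟩
    rw [map_mul, kill_X_self, zero_mul]
  · intro h
    have := X_dvd_sub_kill j g
    rwa [h, sub_zero] at this

theorem X_dvd_of_dvd_pow [IsReduced A] (j : σ) (g : MvPolynomial σ A) (n : ℕ) (h : X j ∣ g ^ n) :
    X j ∣ g := by
  rw [X_dvd_iff] at h ⊢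
  rw [map_pow] at h
  exact IsReduced.eq_zero _ ⟨n, h⟩

theorem prod_dvd_of_forall (J : Finset σ) (g : MvPolynomial σ A) (h : ∀ j ∈ J, X j ∣ g) :
    ∏ j ∈ J, X j ∣ g := by
  classical
  induction J using Finset.induction_on with
  | empty => simp
  | insert j J hj ih =>
    obtain ⟨g', rfl⟩ := ih fun i hi => h i (Finset.mem_insert_of_mem hi)
    rw [Finset.prod_insert hj, mul_comm]
    refine mul_dvd_mul_left _ ?_
    have h1 := h j (Finset.mem_insert_self j J)
    rw [X_dvd_iff] at h1 ⊢
    have h2 : ∏ i ∈ J, kill j (X i : MvPolynomial σ A) = ∏ i ∈ J, X i :=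
      Finset.prod_congr rfl fun i hi => kill_X_of_ne (fun h => hj (h ▸ hi))
    rw [map_mul, map_prod, h2] at h1
    exact (isRegular_prod_X J).left (by simpa using h1)

theorem prod_dvd_of_dvd_pow [IsReduced A] (J : Finset σ) (g : MvPolynomial σ A) (n : ℕ)
    (h : ∏ j ∈ J, X j ∣ g ^ n) : ∏ j ∈ J, X j ∣ g :=
  prod_dvd_of_forall J g fun j hj => X_dvd_of_dvd_pow j g n ((Finset.dvd_prod_of_mem _ hj).trans h)

theorem isReduced_quotient [IsReduced A] (J : Finset σ) :
    IsReduced (MvPolynomial σ A ⧸ Ideal.span {(∏ j ∈ J, X j : MvPolynomial σ A)}) := by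
  rw [← Ideal.isRadical_iff_quotient_reduced]
  rintro g ⟨n, hn⟩
  rw [Ideal.mem_span_singleton] at hn ⊢
  exact prod_dvd_of_dvd_pow J g n hn

end Poly

section Reduced

variable {σ : Type u} {A : Type u} [CommRing A] {D : Type u} [CommRing D]
  [Algebra (MvPolynomial σ A) D] [Algebra.WeaklyEtale (MvPolynomial σ A) D]

theorem isReduced_quotient_map [IsReduced A] (J : Finset σ) :
    IsReduced (D ⧸ Ideal.span {algebraMap (MvPolynomial σ A) D (∏ j ∈ J, X j)}) := by
  have h1 := isReduced_quotient (A := A) J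
  let I : Ideal (MvPolynomial σ A) := Ideal.span {(∏ j ∈ J, X j : MvPolynomial σ A)}
  have h2 := WEReduced.isReduced_of_weaklyEtale (MvPolynomial σ A ⧸ I)
    ((MvPolynomial σ A ⧸ I) ⊗[MvPolynomial σ A] D)
  have h3 : I.map (algebraMap (MvPolynomial σ A) D) =
      Ideal.span {algebraMap (MvPolynomial σ A) D (∏ j ∈ J, X j)} := by
    rw [Ideal.map_span, Set.image_singleton]
  rw [← h3]
  let e : (D ⧸ I.map (algebraMap (MvPolynomial σ A) D)) ≃+*
      (MvPolynomial σ A ⧸ I) ⊗[MvPolynomial σ A] D :=
    ((Algebra.TensorProduct.quotIdealMapEquivTensorQuot D I).toRingEquiv.trans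
      (Algebra.TensorProduct.comm (MvPolynomial σ A) D (MvPolynomial σ A ⧸ I)).toRingEquiv)
  exact isReduced_of_injective e e.injective

theorem dvd_of_dvd_sq [IsReduced A] (J : Finset σ) (b : D)
    (h : algebraMap (MvPolynomial σ A) D (∏ j ∈ J, X j) ∣ b * b) :
    algebraMap (MvPolynomial σ A) D (∏ j ∈ J, X j) ∣ b := by
  have h1 := isReduced_quotient_map (A := A) (D := D) J
  rw [← Ideal.isRadical_iff_quotient_reduced] at h1
  rw [← Ideal.mem_span_singleton]
  refine h1 ⟨2, ?_⟩
  rw [Ideal.mem_span_singleton, pow_two]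
  exact h

theorem isSMulRegular_map (J : Finset σ) :
    IsSMulRegular D (algebraMap (MvPolynomial σ A) D (∏ j ∈ J, X j)) := by
  have : Module.Flat (MvPolynomial σ A) D := Algebra.WeaklyEtale.flat
  exact IsSMulRegular.of_flat (isRegular_prod_X J).left.isSMulRegular

theorem mem_nonZeroDivisors_map (J : Finset σ) :
    algebraMap (MvPolynomial σ A) D (∏ j ∈ J, X j) ∈ nonZeroDivisors D := by
  rw [mem_nonZeroDivisors_iff_right]
  intro x hx
  refine isSMulRegular_map (A := A) J ?_
  change _ * x = _ * 0
  rw [mul_comm, hx, mul_zero]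

/-- Idempotents of `D[1/f]` come from `D`. -/
theorem exists_idempotent [IsReduced A] (J : Finset σ) (L : Type u) [CommRing L] [Algebra D L]
    [IsLocalization.Away (algebraMap (MvPolynomial σ A) D (∏ j ∈ J, X j)) L] (z : L)
    (hz : z * z = z) : ∃ d : D, d * d = d ∧ algebraMap D L d = z := by
  set f := algebraMap (MvPolynomial σ A) D (∏ j ∈ J, X j) with hf
  have hinj : Function.Injective (algebraMap D L) := by
    refine IsLocalization.injective (M := Submonoid.powers f) L ?_
    rintro _ ⟨n, rfl⟩
    exact pow_mem (mem_nonZeroDivisors_map J) n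
  have key : ∀ (n : ℕ) (b : D), algebraMap D L b = z * algebraMap D L (f ^ n) →
      ∃ d : D, algebraMap D L d = z := by
    intro n
    induction n with
    | zero =>
      intro b hb
      exact ⟨b, by simpa using hb⟩
    | succ n ih =>
      intro b hb
      have h1 : b * b = f ^ (n + 1) * b := by
        apply hinj
        rw [map_mul, map_mul, hb]
        linear_combination (algebraMap D L (f ^ (n + 1)) ^ 2) * hz
      have h2 : f ∣ b := by
        refine dvd_of_dvd_sq (A := A) J b ?_
        rw [h1, pow_succ, mul_assoc, mul_comm]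
        exact ⟨_, mul_assoc _ _ _⟩
      obtain ⟨c, rfl⟩ := h2
      refine ih c ?_
      have h3 : algebraMap D L f * algebraMap D L c =
          algebraMap D L f * (z * algebraMap D L (f ^ n)) := by
        rw [← map_mul, hb, pow_succ, map_mul]
        ring
      exact (IsLocalization.Away.algebraMap_isUnit (S := L) f).mul_left_cancel h3
  obtain ⟨n, b, hb⟩ := IsLocalization.Away.surj f z
  obtain ⟨d, hd⟩ := key n b (by rw [map_pow, ← hb])
  refine ⟨d, hinj ?_, hd⟩
  rw [map_mul, hd, hz]

theorem isConnected_basicOpen_of_isReduced [IsReduced A] [IsLocalRing D] (J : Finset σ) :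
    IsConnected (PrimeSpectrum.basicOpen
      (algebraMap (MvPolynomial σ A) D (∏ j ∈ J, X j)) : Set (PrimeSpectrum D)) := by
  set f := algebraMap (MvPolynomial σ A) D (∏ j ∈ J, X j) with hf
  let L := Localization.Away f
  have hinj : Function.Injective (algebraMap D L) := by
    refine IsLocalization.injective (M := Submonoid.powers f) L ?_
    rintro _ ⟨n, rfl⟩
    exact pow_mem (mem_nonZeroDivisors_map J) n
  have hnt : Nontrivial L := hinj.nontrivial
  have hconn : ConnectedSpace (PrimeSpectrum L) := by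
    refine Groth.Agent.Sga3A.GeomConn.connectedSpace_of_idempotents L fun z hz => ?_
    obtain ⟨d, hd, rfl⟩ := exists_idempotent (A := A) (D := D) J L z hz
    rcases IsLocalRing.isUnit_or_isUnit_one_sub_self d with h | h
    · right
      rw [h.mul_left_cancel (b := d) (c := 1) (by rw [hd, mul_one]), map_one]
    · left
      rw [h.mul_left_cancel (b := d) (c := 0) (by rw [mul_zero, sub_mul, one_mul, hd, sub_self]),
        map_zero]
  rw [← PrimeSpectrum.localization_away_comap_range L f]
  exact isConnected_range (PrimeSpectrum.continuous_comap _)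

theorem isLocalRing_of_nil {D D₀ : Type*} [CommRing D] [CommRing D₀] [IsLocalRing D] (ψ : D →+* D₀)
    (hψ : Function.Surjective ψ) (hker : ∀ d : D, ψ d = 0 → IsNilpotent d) : IsLocalRing D₀ := by
  have hnt : Nontrivial D₀ := by
    refine ⟨⟨1, 0, fun h => ?_⟩⟩
    have h1 : ψ 1 = 0 := by rw [map_one, h]
    obtain ⟨n, hn⟩ := hker 1 h1
    rw [one_pow] at hn
    exact one_ne_zero hn
  exact IsLocalRing.of_surjective' ψ hψ

theorem isConnected_of_nil {D D₀ : Type*} [CommRing D] [CommRing D₀] (ψ : D →+* D₀)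
    (hψ : Function.Surjective ψ) (hker : ∀ d : D, ψ d = 0 → IsNilpotent d) (f : D)
    (h : IsConnected (PrimeSpectrum.basicOpen (ψ f) : Set (PrimeSpectrum D₀))) :
    IsConnected (PrimeSpectrum.basicOpen f : Set (PrimeSpectrum D)) := by
  have h2 := h.image (PrimeSpectrum.comap ψ) (PrimeSpectrum.continuous_comap ψ).continuousOn
  have h6 : (PrimeSpectrum.basicOpen (ψ f) : Set (PrimeSpectrum D₀)) =
      PrimeSpectrum.comap ψ ⁻¹' (PrimeSpectrum.basicOpen f) := rfl
  rw [h6, Set.image_preimage_eq_inter_range, range_comap_of_surjective _ _ hψ,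
    Set.inter_eq_left.2] at h2
  · exact h2
  · intro p _
    rw [PrimeSpectrum.mem_zeroLocus]
    intro d hd
    obtain ⟨n, hn⟩ := hker d hd
    exact p.2.mem_of_pow_mem n (by rw [hn]; exact p.asIdeal.zero_mem)

variable (D) in
/-- The base change `D₀` of `D` to `A/nil(A)`. -/
theorem exists_nil_quotient :
    ∃ (D₀ : Type u) (_ : CommRing D₀) (_ : Algebra (MvPolynomial σ (A ⧸ nilradical A)) D₀)
      (_ : Algebra.WeaklyEtale (MvPolynomial σ (A ⧸ nilradical A)) D₀) (ψ : D →+* D₀),
      Function.Surjective ψ ∧ (∀ d : D, ψ d = 0 → IsNilpotent d) ∧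
      ∀ g : MvPolynomial σ A, ψ (algebraMap _ D g) =
        algebraMap _ D₀ (MvPolynomial.map (Ideal.Quotient.mk (nilradical A)) g) := by
  let A₀ := A ⧸ nilradical A
  let φ : MvPolynomial σ A →+* MvPolynomial σ A₀ := MvPolynomial.map (Ideal.Quotient.mk _)
  let _ : Algebra (MvPolynomial σ A) (MvPolynomial σ A₀) := φ.toAlgebra
  let φ' : MvPolynomial σ A →ₐ[MvPolynomial σ A] MvPolynomial σ A₀ := Algebra.ofId _ _
  have hφ : Function.Surjective φ' := MvPolynomial.map_surjective _ Ideal.Quotient.mk_surjective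
  have hkerφ : ∀ g : MvPolynomial σ A, φ g = 0 → IsNilpotent g := by
    intro g hg
    rw [MvPolynomial.isNilpotent_iff]
    intro i
    have h1 : MvPolynomial.coeff i (φ g) = 0 := by rw [hg, MvPolynomial.coeff_zero]
    rw [MvPolynomial.coeff_map, Ideal.Quotient.eq_zero_iff_mem] at h1
    exact h1
  let ψ : D →ₐ[MvPolynomial σ A] MvPolynomial σ A₀ ⊗[MvPolynomial σ A] D :=
    (Algebra.TensorProduct.map φ' (AlgHom.id (MvPolynomial σ A) D)).comp
      (Algebra.TensorProduct.lid (MvPolynomial σ A) D).symm.toAlgHom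
  have hψ' : Function.Surjective (Algebra.TensorProduct.map φ' (AlgHom.id (MvPolynomial σ A) D)) :=
    TensorProduct.map_surjective hφ Function.surjective_id
  refine ⟨MvPolynomial σ A₀ ⊗[MvPolynomial σ A] D, inferInstance, inferInstance, inferInstance,
    ψ.toRingHom, hψ'.comp (Algebra.TensorProduct.lid (MvPolynomial σ A) D).symm.surjective, ?_, ?_⟩
  · intro d hd
    have h1 : (Algebra.TensorProduct.lid (MvPolynomial σ A) D).symm d ∈
        RingHom.ker (Algebra.TensorProduct.map φ' (AlgHom.id (MvPolynomial σ A) D)) := hd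
    rw [Algebra.TensorProduct.rTensor_ker _ hφ] at h1
    have h2 : (RingHom.ker φ').map (Algebra.TensorProduct.includeLeft :
        MvPolynomial σ A →ₐ[MvPolynomial σ A] MvPolynomial σ A ⊗[MvPolynomial σ A] D) ≤
        nilradical _ := by
      rw [Ideal.map_le_iff_le_comap]
      intro g hg
      exact (hkerφ g hg).map _
    have h3 : IsNilpotent ((Algebra.TensorProduct.lid (MvPolynomial σ A) D).symm d) := h2 h1
    have h4 := h3.map (Algebra.TensorProduct.lid (MvPolynomial σ A) D)
    rwa [AlgEquiv.apply_symm_apply] at h4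
  · intro g
    have h4 : ψ.toRingHom (algebraMap (MvPolynomial σ A) D g) =
      algebraMap (MvPolynomial σ A) _ g := ψ.commutes _
    rw [h4, IsScalarTower.algebraMap_apply (MvPolynomial σ A) (MvPolynomial σ A₀)]
    rfl

/-- `D(∏_{j ∈ J} X_j)` is connected in the spectrum of a local ring `D` weakly etale over a polynomial
ring. -/
theorem isConnected_basicOpen [IsLocalRing D] (J : Finset σ) :
    IsConnected (PrimeSpectrum.basicOpen
      (algebraMap (MvPolynomial σ A) D (∏ j ∈ J, X j)) : Set (PrimeSpectrum D)) := by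
  have hA₀ : IsReduced (A ⧸ nilradical A) :=
    (Ideal.isRadical_iff_quotient_reduced _).1 (Ideal.radical_isRadical _)
  obtain ⟨D₀, _, _, _, ψ, hψ, hker, hcomm⟩ := exists_nil_quotient (A := A) (σ := σ) D
  have hloc := isLocalRing_of_nil ψ hψ hker
  refine isConnected_of_nil ψ hψ hker _ ?_
  rw [hcomm, map_prod]
  simp only [MvPolynomial.map_X]
  exact isConnected_basicOpen_of_isReduced J

end Reduced

end Groth.Agent.Pi1.H394.PolyConn
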