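import Groth.Agent.Pi1.H394.KummerAlg
import Groth.Agent.Pi1.H394.PolyConn

/-!
# Connectedness of Kummer covers

Let `R` be a local ring which is weakly etale over a polynomial ring `A[X_j]_{j ∈ σ}` (for instance a
local ring, or a strict henselization of a local ring, of a scheme etale over an affine space), and let
`a_i` (`i ∈ ι`, finite) be the images of distinct variables `X_{e i}`, lying in the maximal ideal.  Then the
Kummer algebra `R[T_i]/(T_i^{n_i} - a_i)` (`n_i ≥ 1` arbitrary) is local and the part of its spectrum where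
all `a_i` are invertible is connected.
-/

set_option autoImplicit false
universe u

open TensorProduct

namespace Groth.Agent.Pi1.H394.KummerConn

open MvPolynomial

section Pushout

theorem weaklyEtale_of_algEquiv {P E D : Type u} [CommRing P] [CommRing E] [CommRing D]
    [Algebra P E] [Algebra P D] [Algebra.WeaklyEtale P E] (e : E ≃ₐ[P] D) :
    Algebra.WeaklyEtale P D := by
  let _ : Algebra E D := e.toAlgHom.toRingHom.toAlgebra
  have _ : IsScalarTower P E D := IsScalarTower.of_algebraMap_eq fun x => (e.commutes x).symm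
  let e' : E ≃ₐ[E] D := AlgEquiv.ofBijective (Algebra.ofId E D) e.bijective
  have : Algebra.Etale E D := Algebra.Etale.of_equiv e'
  exact Algebra.WeaklyEtale.trans P E D

/-- Weakly etale algebras are stable under cobase change, in terms of the universal property of a
pushout square. -/
theorem weaklyEtale_of_pushout {P P' R D : Type u} [CommRing P] [CommRing P'] [CommRing R] [CommRing D]
    (κ : P →+* P') (α : P →+* R) (β : P' →+* D) (γ : R →+* D) (hcomm : γ.comp α = β.comp κ)
    (huniv : ∀ (T : Type u) [CommRing T] (f : R →+* T) (g : P' →+* T), f.comp α = g.comp κ →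
      ∃ h : D →+* T, h.comp γ = f ∧ h.comp β = g)
    (hext : ∀ (T : Type u) [CommRing T] (h h' : D →+* T), h.comp γ = h'.comp γ →
      h.comp β = h'.comp β → h = h')
    (hwe : letI := α.toAlgebra; Algebra.WeaklyEtale P R) :
    letI := β.toAlgebra; Algebra.WeaklyEtale P' D := by
  let _ : Algebra P P' := κ.toAlgebra
  let _ : Algebra P R := α.toAlgebra
  let _ : Algebra P' D := β.toAlgebra
  let _ : Algebra R D := γ.toAlgebra
  let _ : Algebra P D := (γ.comp α).toAlgebra
  have _ : IsScalarTower P R D := IsScalarTower.of_algebraMap_eq fun x => rfl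
  have _ : IsScalarTower P P' D := IsScalarTower.of_algebraMap_eq fun x => RingHom.congr_fun hcomm x
  have hwe' : Algebra.WeaklyEtale P R := hwe
  have h1 : Algebra.WeaklyEtale P' (P' ⊗[P] R) := inferInstance
  let F : P' ⊗[P] R →ₐ[P'] D := Algebra.TensorProduct.lift (Algebra.ofId P' D)
    (IsScalarTower.toAlgHom P R D) (fun _ _ => Commute.all _ _)
  obtain ⟨G, hG1, hG2⟩ := huniv (P' ⊗[P] R)
    (Algebra.TensorProduct.includeRight : R →ₐ[P] P' ⊗[P] R).toRingHom
    (algebraMap P' (P' ⊗[P] R)) (by
      ext x
      have := (Algebra.TensorProduct.includeRight : R →ₐ[P] P' ⊗[P] R).commutes x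
      refine this.trans ?_
      rw [IsScalarTower.algebraMap_apply P P' (P' ⊗[P] R)]
      rfl)
  have hFG : F.toRingHom.comp G = RingHom.id D := by
    refine hext D _ _ ?_ ?_
    · rw [RingHom.comp_assoc, hG1]
      ext x
      change F (1 ⊗ₜ x) = γ x
      simp only [F, Algebra.TensorProduct.lift_tmul, map_one, one_mul]
      rfl
    · rw [RingHom.comp_assoc, hG2]
      ext x
      exact F.commutes x
  have hGF : ∀ x, G (F x) = x := by
    intro x
    induction x with
    | zero => simp
    | add x y hx hy => rw [map_add, map_add, hx, hy]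
    | tmul p r =>
      have h2 : F (p ⊗ₜ r) = β p * γ r := by
        simp only [F, Algebra.TensorProduct.lift_tmul]
        rfl
      have h3 : G (β p) = p ⊗ₜ 1 := RingHom.congr_fun hG2 p
      have h4 : G (γ r) = 1 ⊗ₜ r := RingHom.congr_fun hG1 r
      rw [h2, map_mul, h3, h4, Algebra.TensorProduct.tmul_mul_tmul, mul_one, one_mul]
  let e : (P' ⊗[P] R) ≃ₐ[P'] D := AlgEquiv.ofBijective F
    ⟨Function.LeftInverse.injective hGF, fun d => ⟨G d, RingHom.congr_fun hFG d⟩⟩
  exact weaklyEtale_of_algEquiv e

end Pushout

section Kummer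

open Classical in
/-- The exponents on all variables: `n_i` for `X_{e i}` and `1` for the variables not of this form. -/
noncomputable def expo {ι : Type} {σ : Type u} (e : ι → σ) (n : ι → ℕ) (j : σ) : ℕ :=
  if h : ∃ i, e i = j then n h.choose else 1

theorem expo_apply {ι : Type} {σ : Type u} (e : ι → σ) (he : Function.Injective e) (n : ι → ℕ) (i : ι) :
    expo e n (e i) = n i := by
  have h : ∃ i', e i' = e i := ⟨i, rfl⟩
  rw [expo, dif_pos h, he h.choose_spec]

theorem expo_of_not {ι : Type} {σ : Type u} (e : ι → σ) (n : ι → ℕ) (j : σ) (hj : ¬ ∃ i, e i = j) :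
    expo e n j = 1 := by
  rw [expo, dif_neg hj]

variable {σ : Type u} {A : Type u} [CommRing A] {R : Type u} [CommRing R]
  (α : MvPolynomial σ A →+* R) {ι : Type} (e : ι → σ) (n : ι → ℕ)

/-- The images of the variables `X_{e i}`. -/
noncomputable abbrev coord : ι → R := fun i => α (X (e i))

open Classical in
/-- `A[X_j] → R[T_i]/(T_i^{n_i} - x_{e i})`, `X_{e i} ↦ T_i` and `X_j ↦ x_j` for the other variables. -/
noncomputable def polyToKummer : MvPolynomial σ A →+* SGA1t.kummer R (coord α e) n :=
  MvPolynomial.eval₂Hom ((algebraMap R (SGA1t.kummer R (coord α e) n)).comp (α.comp C))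
    (fun j => if h : ∃ i, e i = j then KummerAlg.T (coord α e) n h.choose
      else algebraMap R (SGA1t.kummer R (coord α e) n) (α (X j)))

theorem polyToKummer_C (c : A) : polyToKummer α e n (C c) =
    algebraMap R (SGA1t.kummer R (coord α e) n) (α (C c)) := by
  simp [polyToKummer]

theorem polyToKummer_X (he : Function.Injective e) (i : ι) : polyToKummer α e n (X (e i)) =
    KummerAlg.T (coord α e) n i := by
  have h : ∃ i', e i' = e i := ⟨i, rfl⟩
  rw [polyToKummer, coe_eval₂Hom, eval₂_X, dif_pos h, he h.choose_spec]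

theorem polyToKummer_X_of_not (j : σ) (hj : ¬ ∃ i, e i = j) : polyToKummer α e n (X j) =
    algebraMap R (SGA1t.kummer R (coord α e) n) (α (X j)) := by
  rw [polyToKummer, coe_eval₂Hom, eval₂_X, dif_neg hj]

/-- `X_j ↦ X_j^{m_j}`. -/
noncomputable def powHom : MvPolynomial σ A →+* MvPolynomial σ A :=
  MvPolynomial.eval₂Hom C (fun j => X j ^ expo e n j)

/-- If `R` is weakly etale over `A[X_j]` then the Kummer algebra is weakly etale over `A[X_j]` through
`X_{e i} ↦ T_i`. -/
theorem weaklyEtale_kummer (he : Function.Injective e)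
    (hwe : letI := α.toAlgebra; Algebra.WeaklyEtale (MvPolynomial σ A) R) :
    letI := (polyToKummer α e n).toAlgebra
    Algebra.WeaklyEtale (MvPolynomial σ A) (SGA1t.kummer R (coord α e) n) := by
  refine weaklyEtale_of_pushout (powHom e n) α (polyToKummer α e n)
    (algebraMap R (SGA1t.kummer R (coord α e) n)) ?_ ?_ ?_ hwe
  · refine MvPolynomial.ringHom_ext (fun c => ?_) (fun j => ?_)
    · simp [powHom, polyToKummer_C]
    · simp only [RingHom.comp_apply, powHom, coe_eval₂Hom, eval₂_X, map_pow]
      by_cases hj : ∃ i, e i = j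
      · obtain ⟨i, rfl⟩ := hj
        rw [expo_apply e he, polyToKummer_X α e n he, KummerAlg.T_pow]
      · rw [expo_of_not e n j hj, pow_one, polyToKummer_X_of_not α e n j hj]
  · intro T _ f g hfg
    have hC : ∀ c, f (α (C c)) = g (C c) := by
      intro c
      have := RingHom.congr_fun hfg (C c)
      simpa [powHom] using this
    have hX : ∀ j, f (α (X j)) = g (X j) ^ expo e n j := by
      intro j
      have := RingHom.congr_fun hfg (X j)
      simpa [powHom] using this
    refine ⟨KummerAlg.lift (coord α e) n f (fun i => g (X (e i))) (fun i => ?_), ?_, ?_⟩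
    · rw [hX, expo_apply e he]
    · ext r
      simp
    · refine MvPolynomial.ringHom_ext (fun c => ?_) (fun j => ?_)
      · rw [RingHom.comp_apply, polyToKummer_C, KummerAlg.lift_algebraMap, hC]
      · by_cases hj : ∃ i, e i = j
        · obtain ⟨i, rfl⟩ := hj
          rw [RingHom.comp_apply, polyToKummer_X α e n he, KummerAlg.lift_T]
        · rw [RingHom.comp_apply, polyToKummer_X_of_not α e n j hj, KummerAlg.lift_algebraMap, hX,
            expo_of_not e n j hj, pow_one]
  · intro T _ h h' h1 h2
    refine KummerAlg.ringHom_ext (coord α e) n (fun r => RingHom.congr_fun h1 r) (fun i => ?_)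
    rw [← polyToKummer_X α e n he]
    exact RingHom.congr_fun h2 _

/-- The part of the spectrum of the Kummer algebra where all `a_i` are invertible is connected. -/
theorem isConnected_basicOpen [Fintype ι] [IsLocalRing R] (he : Function.Injective e)
    (hwe : letI := α.toAlgebra; Algebra.WeaklyEtale (MvPolynomial σ A) R)
    (ha : ∀ i, coord α e i ∈ IsLocalRing.maximalIdeal R) (hn : ∀ i, 1 ≤ n i) :
    IsConnected (PrimeSpectrum.basicOpen (algebraMap R (SGA1t.kummer R (coord α e) n)
      (∏ i, coord α e i)) : Set (PrimeSpectrum (SGA1t.kummer R (coord α e) n))) := by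
  have hloc := KummerAlg.isLocalRing (coord α e) n ha hn
  let _ := (polyToKummer α e n).toAlgebra
  have hw : Algebra.WeaklyEtale (MvPolynomial σ A) (SGA1t.kummer R (coord α e) n) :=
    weaklyEtale_kummer α e n he hwe
  have h1 := PolyConn.isConnected_basicOpen (A := A) (D := SGA1t.kummer R (coord α e) n)
    (Finset.univ.map ⟨e, he⟩)
  rw [Finset.prod_map, map_prod] at h1
  have h2 : ∏ i, (algebraMap (MvPolynomial σ A) (SGA1t.kummer R (coord α e) n))
      (X ((⟨e, he⟩ : ι ↪ σ) i)) = ∏ i, KummerAlg.T (coord α e) n i :=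
    Finset.prod_congr rfl fun i _ => polyToKummer_X α e n he i
  rw [h2] at h1
  have h3 : (PrimeSpectrum.basicOpen (algebraMap R (SGA1t.kummer R (coord α e) n)
      (∏ i, coord α e i)) : Set (PrimeSpectrum (SGA1t.kummer R (coord α e) n))) =
      PrimeSpectrum.basicOpen (∏ i, KummerAlg.T (coord α e) n i) := by
    ext p
    rw [SetLike.mem_coe, SetLike.mem_coe, PrimeSpectrum.mem_basicOpen, PrimeSpectrum.mem_basicOpen,
      not_iff_not, map_prod, p.2.prod_mem_iff, p.2.prod_mem_iff]
    refine exists_congr fun i => and_congr_right fun _ => ?_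
    rw [← KummerAlg.T_pow (coord α e) n i]
    exact p.2.pow_mem_iff_mem _ (hn i)
  rw [h3]
  exact h1

end Kummer

end Groth.Agent.Pi1.H394.KummerConn
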