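import Groth.Agent.Pi1.H394.Chart
import Groth.Agent.Pi1.H394.KummerConn

/-!
# Kummer covers along a relative strict normal crossings divisor are connected

* `connectedSpace_of_weaklyEtale`: for `g : Spec R → X` weakly etale, `R` local, the closed point being
  mapped to a point `x` of the divisor: the part of the spectrum of the Kummer algebra
  `R[T_i]/(T_i^{n_i} - φ_i)` (`i` with `φ_i(x) = 0`) over the complement of the divisor is connected;
* `connectedSpace_stalk` (`R = O_{X,x}`), `connectedSpace_strictHenselization`.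
-/

set_option autoImplicit false
universe u

open CategoryTheory CategoryTheory.Limits AlgebraicGeometry

namespace Groth.Agent.Pi1.H394.SNCConn

variable {X S : Scheme.{u}}

instance finite_vanishingAt {r : ℕ} (φ : Fin r → Γ(X, ⊤)) (x : X) : Finite (SGA1t.vanishingAt φ x) :=
  inferInstanceAs (Finite {i : Fin r // x ∉ X.basicOpen (φ i)})

/-- The function on `Spec R` attached to a global section of `X`. -/
noncomputable abbrev sec {R : Type u} [CommRing R] (g : Spec (CommRingCat.of R) ⟶ X) (s : Γ(X, ⊤)) : R :=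
  (Scheme.ΓSpecIso (CommRingCat.of R)).hom (g.appTop s)

theorem mem_basicOpen_iff {R : Type u} [CommRing R] (g : Spec (CommRingCat.of R) ⟶ X) (s : Γ(X, ⊤))
    (p : PrimeSpectrum R) : g p ∈ X.basicOpen s ↔ sec g s ∉ p.asIdeal := by
  have h1 : g ⁻¹ᵁ X.basicOpen s = (Spec (CommRingCat.of R)).basicOpen (g.appTop s) :=
    Scheme.preimage_basicOpen_top g s
  have h2 : g p ∈ X.basicOpen s ↔ (p : ↥(Spec (CommRingCat.of R))) ∈ g ⁻¹ᵁ X.basicOpen s := Iff.rfl
  rw [h2, h1, basicOpen_eq_of_affine']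
  exact PrimeSpectrum.mem_basicOpen _ _

theorem sec_mem_maximalIdeal {R : Type u} [CommRing R] [IsLocalRing R]
    (g : Spec (CommRingCat.of R) ⟶ X) (x : X) (hg : g (IsLocalRing.closedPoint R) = x) (s : Γ(X, ⊤))
    (hs : x ∉ X.basicOpen s) : sec g s ∈ IsLocalRing.maximalIdeal R := by
  by_contra h
  exact hs (hg ▸ (mem_basicOpen_iff g s (IsLocalRing.closedPoint R)).2 h)

theorem isUnit_sec {R : Type u} [CommRing R] [IsLocalRing R]
    (g : Spec (CommRingCat.of R) ⟶ X) (x : X) (hg : g (IsLocalRing.closedPoint R) = x) (s : Γ(X, ⊤))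
    (hs : x ∈ X.basicOpen s) : IsUnit (sec g s) := by
  have h1 : sec g s ∉ IsLocalRing.maximalIdeal R :=
    (mem_basicOpen_iff g s (IsLocalRing.closedPoint R)).1 (hg.symm ▸ hs)
  rwa [IsLocalRing.mem_maximalIdeal, mem_nonunits_iff, not_not] at h1

variable (f : X ⟶ S) {r : ℕ} (φ : Fin r → Γ(X, ⊤)) (hD : SGA1t.IsRelSNC f φ) (x : X)
    (hx : Nonempty (SGA1t.vanishingAt φ x))

include hD hx in
/-- The ring-theoretic statement: the Kummer algebra is local and the locus where all vanishing `φ_i` are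
invertible is connected. -/
theorem isConnected_of_weaklyEtale (R : Type u) [CommRing R] [IsLocalRing R]
    (g : Spec (CommRingCat.of R) ⟶ X) [WeaklyEtale g] (hg : g (IsLocalRing.closedPoint R) = x)
    (a : SGA1t.vanishingAt φ x → R) (ha : ∀ i, a i = sec g (φ i.1))
    (n : SGA1t.vanishingAt φ x → ℕ) (hn : ∀ i, 1 ≤ n i) :
    IsLocalRing (SGA1t.kummer R a n) ∧
    _root_.IsConnected {p : PrimeSpectrum (SGA1t.kummer R a n) |
      ∀ i, algebraMap R (SGA1t.kummer R a n) (a i) ∉ p.asIdeal} := by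
  obtain ⟨V, hV, hxV, d, e, α, he, hwe, hα, -⟩ := Chart.exists_chart f φ hD x hx R g hg
  have hm : ∀ i, a i ∈ IsLocalRing.maximalIdeal R := fun i => by
    rw [ha]
    exact sec_mem_maximalIdeal g x hg _ i.2
  obtain rfl : a = KummerConn.coord α e := funext fun i => (ha i).trans (hα i).symm
  have : Fintype (SGA1t.vanishingAt φ x) := Fintype.ofFinite _
  refine ⟨KummerAlg.isLocalRing _ n hm hn, ?_⟩
  have h1 := KummerConn.isConnected_basicOpen α e n he hwe hm hn
  have h2 : {p : PrimeSpectrum (SGA1t.kummer R (KummerConn.coord α e) n) |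
      ∀ i, algebraMap R (SGA1t.kummer R (KummerConn.coord α e) n) (KummerConn.coord α e i) ∉ p.asIdeal} =
      PrimeSpectrum.basicOpen (algebraMap R (SGA1t.kummer R (KummerConn.coord α e) n)
        (∏ i, KummerConn.coord α e i)) := by
    ext p
    rw [SetLike.mem_coe, PrimeSpectrum.mem_basicOpen, map_prod, p.2.prod_mem_iff]
    simp
  rw [h2]
  exact h1

theorem mem_preimage_compl_iff {R : Type u} [CommRing R] [IsLocalRing R]
    (g : Spec (CommRingCat.of R) ⟶ X) (hg : g (IsLocalRing.closedPoint R) = x)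
    (K : Type u) [CommRing K] [Algebra R K] (p : PrimeSpectrum K) :
    (p : ↥(Spec (CommRingCat.of K))) ∈ Spec.map (CommRingCat.ofHom (algebraMap R K)) ⁻¹ᵁ
        SGA1t.compl (fun i => g.appTop (φ i)) ↔
      ∀ i : SGA1t.vanishingAt φ x, algebraMap R K (sec g (φ i.1)) ∉ p.asIdeal := by
  have h1 : (p : ↥(Spec (CommRingCat.of K))) ∈ Spec.map (CommRingCat.ofHom (algebraMap R K)) ⁻¹ᵁ
        SGA1t.compl (fun i => g.appTop (φ i)) ↔
      (PrimeSpectrum.comap (algebraMap R K) p : ↥(Spec (CommRingCat.of R))) ∈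
        (Spec (CommRingCat.of R)).basicOpen (∏ i, g.appTop (φ i)) := Iff.rfl
  have h2 : (PrimeSpectrum.comap (algebraMap R K) p : ↥(Spec (CommRingCat.of R))) ∈
        (Spec (CommRingCat.of R)).basicOpen (∏ i, g.appTop (φ i)) ↔
      ∏ i, sec g (φ i) ∉ (PrimeSpectrum.comap (algebraMap R K) p).asIdeal := by
    rw [basicOpen_eq_of_affine', map_prod]
    exact PrimeSpectrum.mem_basicOpen _ _
  rw [h1, h2, (PrimeSpectrum.comap (algebraMap R K) p).2.prod_mem_iff]
  simp only [not_exists, not_and]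
  constructor
  · intro h i
    exact h i.1 (Finset.mem_univ _)
  · intro h i _
    by_cases hi : x ∈ X.basicOpen (φ i)
    · intro h3
      exact (PrimeSpectrum.comap (algebraMap R K) p).2.ne_top
        (Ideal.eq_top_of_isUnit_mem _ h3 (isUnit_sec g x hg _ hi))
    · exact h ⟨i, hi⟩

include hD hx in
/-- The part over the complement of the divisor of the spectrum of the Kummer algebra is connected. -/
theorem connectedSpace_of_weaklyEtale (R : Type u) [CommRing R] [IsLocalRing R]
    (g : Spec (CommRingCat.of R) ⟶ X) [WeaklyEtale g] (hg : g (IsLocalRing.closedPoint R) = x)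
    (a : SGA1t.vanishingAt φ x → R) (ha : ∀ i, a i = sec g (φ i.1))
    (n : SGA1t.vanishingAt φ x → ℕ) (hn : ∀ i, 1 ≤ n i) :
    ConnectedSpace ↥(Spec.map (CommRingCat.ofHom (algebraMap R (SGA1t.kummer R a n))) ⁻¹ᵁ
        SGA1t.compl (fun i => g.appTop (φ i))) := by
  have h1 := (isConnected_of_weaklyEtale f φ hD x hx R g hg a ha n hn).2
  have h2 : {p : PrimeSpectrum (SGA1t.kummer R a n) |
      ∀ i, algebraMap R (SGA1t.kummer R a n) (a i) ∉ p.asIdeal} =
      ((Spec.map (CommRingCat.ofHom (algebraMap R (SGA1t.kummer R a n))) ⁻¹ᵁ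
        SGA1t.compl (fun i => g.appTop (φ i)) : (Spec (CommRingCat.of (SGA1t.kummer R a n))).Opens) :
        Set ↥(Spec (CommRingCat.of (SGA1t.kummer R a n)))) := by
    ext p
    refine Iff.trans ?_ (mem_preimage_compl_iff φ x g hg (SGA1t.kummer R a n) p).symm
    rw [Set.mem_ofPred_eq]
    exact forall_congr' fun i => by rw [ha i]
  rw [h2] at h1
  exact isConnected_iff_connectedSpace.1 h1

theorem sec_fromSpecStalk (x : X) (s : Γ(X, ⊤)) :
    sec (R := X.presheaf.stalk x) (X.fromSpecStalk x) s = (X.presheaf.germ ⊤ x trivial).hom s := by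
  have h : (X.fromSpecStalk x).appTop ≫ (Scheme.ΓSpecIso (X.presheaf.stalk x)).hom =
      X.presheaf.germ ⊤ x trivial := by
    rw [Scheme.fromSpecStalk_appTop]
    simp
  exact congr($(h) s)

theorem sec_specOf (x : X) (R : Type u) [CommRing R] [Algebra (X.presheaf.stalk x) R] (s : Γ(X, ⊤)) :
    sec (Hens2.specOf X x R) s =
      algebraMap (X.presheaf.stalk x) R ((X.presheaf.germ ⊤ x trivial).hom s) := by
  have h : (Hens2.specOf X x R).appTop ≫ (Scheme.ΓSpecIso (CommRingCat.of R)).hom =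
      X.presheaf.germ ⊤ x trivial ≫ CommRingCat.ofHom (algebraMap (X.presheaf.stalk x) R) := by
    have h0 : (X.fromSpecStalk x).appTop ≫ (Scheme.ΓSpecIso (X.presheaf.stalk x)).hom =
        X.presheaf.germ ⊤ x trivial := by
      rw [Scheme.fromSpecStalk_appTop]
      simp
    rw [Scheme.Hom.comp_appTop, Category.assoc, Scheme.ΓSpecIso_naturality]
    refine (Category.assoc _ _ _).symm.trans ?_
    exact congrArg (· ≫ CommRingCat.ofHom (algebraMap (X.presheaf.stalk x) R)) h0
  exact congr($(h) s)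


include hD hx in
/-- The version for objects of `CommRingCat`. -/
theorem connectedSpace_of_weaklyEtale' (A : CommRingCat.{u}) [IsLocalRing A]
    (g : Spec A ⟶ X) [WeaklyEtale g] (hg : g (IsLocalRing.closedPoint A) = x)
    (a : SGA1t.vanishingAt φ x → A) (ha : ∀ i, a i = (Scheme.ΓSpecIso A).hom (g.appTop (φ i.1)))
    (n : SGA1t.vanishingAt φ x → ℕ) (hn : ∀ i, 1 ≤ n i) :
    ConnectedSpace ↥(Spec.map (CommRingCat.ofHom (algebraMap A (SGA1t.kummer A a n))) ⁻¹ᵁ
        SGA1t.compl (fun i => g.appTop (φ i))) :=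
  connectedSpace_of_weaklyEtale f φ hD x hx A g hg a ha n hn

include hD hx in
/-- The case of the local ring `O_{X,x}`. -/
theorem connectedSpace_stalk (n : SGA1t.vanishingAt φ x → ℕ) (hn : ∀ i, 1 ≤ n i) :
    letI A := X.presheaf.stalk x
    letI a : SGA1t.vanishingAt φ x → A := fun i => (X.presheaf.germ ⊤ x trivial).hom (φ i.1)
    letI π : Spec (CommRingCat.of (SGA1t.kummer A a n)) ⟶ Spec (CommRingCat.of A) :=
      Spec.map (CommRingCat.ofHom (algebraMap A (SGA1t.kummer A a n)))
    letI φ₁ : Fin r → Γ(Spec (CommRingCat.of A), ⊤) := fun i => (X.fromSpecStalk x).appTop (φ i)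
    ConnectedSpace ↥(π ⁻¹ᵁ SGA1t.compl φ₁) := by
  have := Groth.Agent.Pi1C.StrictHensConn.weaklyEtale_fromSpecStalk X x
  exact connectedSpace_of_weaklyEtale' f φ hD x hx (X.presheaf.stalk x) (X.fromSpecStalk x)
    Scheme.fromSpecStalk_closedPoint _ (fun i => (sec_fromSpecStalk x _).symm) n hn

include hD hx in
/-- The case of a strict henselization. -/
theorem connectedSpace_strictHenselization (R : Type u) [CommRing R] [IsLocalRing R]
    [Algebra (X.presheaf.stalk x) R] [IsLocalHom (algebraMap (X.presheaf.stalk x) R)]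
    [Hensel.IsStrictHenselization (X.presheaf.stalk x) R]
    (n : SGA1t.vanishingAt φ x → ℕ) (hn : ∀ i, 1 ≤ n i) :
    letI a : SGA1t.vanishingAt φ x → R := fun i =>
      algebraMap (X.presheaf.stalk x) R ((X.presheaf.germ ⊤ x trivial).hom (φ i.1))
    letI π : Spec (CommRingCat.of (SGA1t.kummer R a n)) ⟶ Spec (CommRingCat.of R) :=
      Spec.map (CommRingCat.ofHom (algebraMap R (SGA1t.kummer R a n)))
    letI U₁ := SGA1t.compl (fun i => (Hens2.specOf X x R).appTop (φ i))
    ConnectedSpace ↥(π ⁻¹ᵁ U₁) := by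
  have := Groth.Agent.Pi1C.StrictHensConn.weaklyEtale_specOf X x R
  exact connectedSpace_of_weaklyEtale f φ hD x hx R (Hens2.specOf X x R)
    (Groth.Agent.Pi1C.StrictHensConn.specOf_closedPoint X x R) _
    (fun i => (sec_specOf x R _).symm) n hn

end Groth.Agent.Pi1.H394.SNCConn
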