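import Groth.Agent.Pi1.H394.SNCConn

/-!
# Points of the complement of the divisor in `Spec R`
-/

set_option autoImplicit false
universe u

open CategoryTheory CategoryTheory.Limits AlgebraicGeometry

namespace Groth.Agent.Pi1.H394.SNCMem

variable {X : Scheme.{u}}

theorem mem_compl_iff {R : Type u} [CommRing R] (g : Spec (CommRingCat.of R) ⟶ X) {r : ℕ}
    (φ : Fin r → Γ(X, ⊤)) (p : PrimeSpectrum R) :
    (p : ↥(Spec (CommRingCat.of R))) ∈ SGA1t.compl (fun i => g.appTop (φ i)) ↔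
      ∀ i, SNCConn.sec g (φ i) ∉ p.asIdeal := by
  have h2 : (p : ↥(Spec (CommRingCat.of R))) ∈
        (Spec (CommRingCat.of R)).basicOpen (∏ i, g.appTop (φ i)) ↔
      ∏ i, SNCConn.sec g (φ i) ∉ p.asIdeal := by
    rw [basicOpen_eq_of_affine', map_prod]
    exact PrimeSpectrum.mem_basicOpen _ _
  rw [h2, p.2.prod_mem_iff]
  simp

end Groth.Agent.Pi1.H394.SNCMem
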