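import Groth.Agent.EtpbcB.WeaklyEtale1
import Mathlib.RingTheory.LocalRing.ResidueField.Ideal
import Mathlib.RingTheory.TensorProduct.Basic
import Mathlib.RingTheory.Flat.Basic

/-!
# Weakly etale algebras over a reduced ring are reduced

* `flat_of_vnr`: every module over a von Neumann regular ring is flat.
* `isReduced_of_weaklyEtale`: if `A` is reduced and `A → B` is weakly etale, then `B` is reduced.
-/

set_option autoImplicit false
universe u v

open TensorProduct

namespace Groth.Agent.Pi1.H394.WEReduced

/-- In a von Neumann regular ring every finitely generated ideal `I` contains an element acting as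
the identity on `I`. -/
theorem exists_unit_of_fg {F : Type u} [CommRing F] (h : ∀ x : F, ∃ y, x * x * y = x) (I : Ideal F)
    (hI : I.FG) : ∃ e ∈ I, ∀ x ∈ I, e * x = x := by
  refine Submodule.fg_induction (motive := fun I _ => ∃ e ∈ I, ∀ x ∈ I, e * x = x) ?_ ?_ I hI
  · intro a
    obtain ⟨y, hy⟩ := h a
    refine ⟨a * y, ?_, ?_⟩
    · rw [mul_comm]
      exact Submodule.smul_mem _ y (Submodule.mem_span_singleton_self a)
    · intro x hx
      obtain ⟨c, rfl⟩ := Submodule.mem_span_singleton.1 hx
      simp only [smul_eq_mul]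
      linear_combination c * hy
  · rintro I J - - ⟨e, he, he'⟩ ⟨f, hf, hf'⟩
    refine ⟨e + f - e * f, ?_, ?_⟩
    · refine Submodule.sub_mem _ (Submodule.add_mem _ (Submodule.mem_sup_left he)
        (Submodule.mem_sup_right hf)) ?_
      rw [mul_comm]
      exact Submodule.mem_sup_left (Submodule.smul_mem _ f he)
    · intro x hx
      obtain ⟨a, ha, b, hb, rfl⟩ := Submodule.mem_sup.1 hx
      linear_combination (1 - f) * he' a ha + (1 - e) * hf' b hb

/-- Every module over a von Neumann regular ring is flat. -/
theorem flat_of_vnr {F : Type u} [CommRing F] (h : ∀ x : F, ∃ y, x * x * y = x)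
    (M : Type v) [AddCommGroup M] [Module F M] : Module.Flat F M := by
  rw [Module.Flat.iff_lift_lsmul_comp_subtype_injective]
  intro I hI
  obtain ⟨e, he, he'⟩ := exists_unit_of_fg h I hI
  rw [injective_iff_map_eq_zero]
  intro t ht
  have key : ∀ t : I ⊗[F] M, t = (⟨e, he⟩ : I) ⊗ₜ[F]
      (TensorProduct.lift ((LinearMap.lsmul F M).comp I.subtype) t) := by
    intro t
    induction t with
    | zero => simp
    | tmul x m =>
      simp only [TensorProduct.lift.tmul, LinearMap.comp_apply, Submodule.subtype_apply,
        LinearMap.lsmul_apply]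
      rw [← TensorProduct.smul_tmul]
      congr 1
      ext
      simp only [SetLike.val_smul, smul_eq_mul]
      rw [mul_comm]
      exact (he' _ x.2).symm
    | add x y hx hy =>
      rw [map_add, TensorProduct.tmul_add, ← hx, ← hy]
  rw [key t]
  have : (TensorProduct.lift ((LinearMap.lsmul F M).comp I.subtype)) t = 0 := ht
  rw [this, TensorProduct.tmul_zero]

/-- A weakly etale algebra over a von Neumann regular ring is reduced. -/
theorem isReduced_of_vnr {F B : Type u} [CommRing F] [CommRing B] [Algebra F B]
    (h : ∀ x : F, ∃ y, x * x * y = x) [Algebra.WeaklyEtale F B] : IsReduced B := by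
  rw [isReduced_iff_pow_one_lt 2 one_lt_two]
  intro x hx
  have hF : Module.Flat F (B ⧸ Ideal.span {x}) := flat_of_vnr h _
  have : (Ideal.span {x}).Pure :=
    Groth.Agent.EtpbcB.WeaklyEtale1.flat_of_flat_lmul' F B (B ⧸ Ideal.span {x})
      (Algebra.WeaklyEtale.flat_lmul' F B)
  obtain ⟨y, hy, hxy⟩ := Ideal.exists_eq_mul_of_pure (I := Ideal.span {x})
    (Ideal.mem_span_singleton_self x)
  obtain ⟨z, rfl⟩ := Ideal.mem_span_singleton'.1 hy
  rw [hxy]
  linear_combination z * hx

/-- A weakly etale algebra over a reduced ring is reduced. -/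
theorem isReduced_of_weaklyEtale (A B : Type u) [CommRing A] [CommRing B] [Algebra A B]
    [Algebra.WeaklyEtale A B] [IsReduced A] : IsReduced B := by
  let F : Type u := ∀ p : PrimeSpectrum A, p.asIdeal.ResidueField
  have hvnr : ∀ x : F, ∃ y, x * x * y = x := by
    intro x
    refine ⟨fun p => (x p)⁻¹, ?_⟩
    funext p
    change x p * x p * (x p)⁻¹ = x p
    by_cases hp : x p = 0
    · simp [hp]
    · field_simp
  have hinj : Function.Injective (algebraMap A F) := by
    rw [injective_iff_map_eq_zero]
    intro a ha
    have h1 : a ∈ nilradical A := by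
      rw [nilradical_eq_sInf, Submodule.mem_sInf]
      intro p hp
      have hp' : Ideal.IsPrime p := hp
      have h2 : algebraMap A (⟨p, hp'⟩ : PrimeSpectrum A).asIdeal.ResidueField a = 0 :=
        congrFun ha ⟨p, hp'⟩
      rwa [Ideal.algebraMap_residueField_eq_zero] at h2
    rwa [nilradical_eq_zero, Ideal.zero_eq_bot, Ideal.mem_bot] at h1
  have hred : IsReduced (F ⊗[A] B) := isReduced_of_vnr (F := F) hvnr
  have hinj2 : Function.Injective (Algebra.TensorProduct.includeRight : B →ₐ[A] F ⊗[A] B) :=
    Algebra.TensorProduct.includeRight_injective hinj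
  exact isReduced_of_injective (Algebra.TensorProduct.includeRight : B →ₐ[A] F ⊗[A] B) hinj2

end Groth.Agent.Pi1.H394.WEReduced
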